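import Cfsg.Agent.Suzuki.SylowTwo
import Cfsg.Agent.SuzukiTwo.TypeACoord
import Cfsg.Agent.SuzukiAut.Out
import Cfsg.Agent.Eq.Def_Solvable
import Cfsg.Prelude.Def_Transfer

/-!
The automorphism group of a Sylow 2-subgroup of a Suzuki group.
-/

set_option autoImplicit false

open scoped commutatorElement

namespace CfsgLib.Suzuki

variable {F : Type*} [Field F] {θ : F →+* F} [CharP F 2] [Finite F]

/-- The first coordinate of an element of the translation group. -/
noncomputable def uA (hT : TitsEndo θ) (g : uGrp hT) : F := (uU_surj hT g).choose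

/-- The second coordinate of an element of the translation group. -/
noncomputable def uB (hT : TitsEndo θ) (g : uGrp hT) : F := (uU_surj hT g).choose_spec.choose

theorem uU_coord (hT : TitsEndo θ) (g : uGrp hT) : uU hT (uA hT g) (uB hT g) = g :=
  (uU_surj hT g).choose_spec.choose_spec.symm

theorem uA_uU (hT : TitsEndo θ) (a b : F) : uA hT (uU hT a b) = a :=
  ((uU_inj hT).1 (uU_coord hT (uU hT a b))).1

theorem uB_uU (hT : TitsEndo θ) (a b : F) : uB hT (uU hT a b) = b :=
  ((uU_inj hT).1 (uU_coord hT (uU hT a b))).2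

theorem uA_mul (hT : TitsEndo θ) (g h : uGrp hT) : uA hT (g * h) = uA hT g + uA hT h := by
  obtain ⟨a, b, rfl⟩ := uU_surj hT g
  obtain ⟨c, e, rfl⟩ := uU_surj hT h
  rw [uU_mul, uA_uU, uA_uU, uA_uU]

theorem uU_mul_central (hT : TitsEndo θ) (a b : F) : uU hT a 0 * uU hT 0 b = uU hT a b := by
  rw [uU_mul]; simp

/-- Automorphisms preserve the central coordinates. -/
theorem uA_aut_central (hT : TitsEndo θ) (α : MulAut (uGrp hT)) (b : F) :
    uA hT (α (uU hT 0 b)) = 0 := by
  have hc : α (uU hT 0 b) ∈ Subgroup.center (uGrp hT) := by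
    have hb : uU hT 0 b ∈ Subgroup.center (uGrp hT) := by rw [center_eq]; exact ⟨b, rfl⟩
    rw [Subgroup.mem_center_iff] at hb ⊢
    intro g
    obtain ⟨x, rfl⟩ := α.surjective g
    rw [← map_mul, ← map_mul, hb x]
  rw [center_eq] at hc
  obtain ⟨e, he⟩ := hc
  rw [he, uA_uU]

theorem uA_aut (hT : TitsEndo θ) (α : MulAut (uGrp hT)) (a b : F) :
    uA hT (α (uU hT a b)) = uA hT (α (uU hT a 0)) := by
  rw [← uU_mul_central hT a b, map_mul, uA_mul, uA_aut_central, add_zero]

theorem uA_aut_add (hT : TitsEndo θ) (α : MulAut (uGrp hT)) (a c : F) :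
    uA hT (α (uU hT (a + c) 0)) = uA hT (α (uU hT a 0)) + uA hT (α (uU hT c 0)) := by
  rw [← uA_mul, ← map_mul, uU_mul, uA_aut hT α _ (0 + 0 + θ a * c)]

theorem uA_aut_comp (hT : TitsEndo θ) (α β : MulAut (uGrp hT)) (a : F) :
    uA hT ((α * β) (uU hT a 0)) = uA hT (α (uU hT (uA hT (β (uU hT a 0))) 0)) := by
  rw [MulAut.mul_apply]
  conv_lhs => rw [← uU_coord hT (β (uU hT a 0))]
  exact uA_aut hT α _ _

/-- The action on the first layer. -/
noncomputable def layerAut (hT : TitsEndo θ) (α : MulAut (uGrp hT)) : AddAut F where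
  toFun a := uA hT (α (uU hT a 0))
  invFun a := uA hT (α⁻¹ (uU hT a 0))
  left_inv a := by
    show uA hT (α⁻¹ (uU hT (uA hT (α (uU hT a 0))) 0)) = a
    rw [← uA_aut_comp, inv_mul_cancel, MulAut.one_apply, uA_uU]
  right_inv a := by
    show uA hT (α (uU hT (uA hT (α⁻¹ (uU hT a 0))) 0)) = a
    rw [← uA_aut_comp, mul_inv_cancel, MulAut.one_apply, uA_uU]
  map_add' := uA_aut_add hT α

/-- The homomorphism to the automorphisms of the first layer. -/
noncomputable def layerHom (hT : TitsEndo θ) : MulAut (uGrp hT) →* Equiv.Perm F where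
  toFun α := (layerAut hT α).toEquiv
  map_one' := Equiv.ext fun a => by
    show uA hT ((1 : MulAut (uGrp hT)) (uU hT a 0)) = a
    rw [MulAut.one_apply, uA_uU]
  map_mul' α β := Equiv.ext fun a => uA_aut_comp hT α β a

theorem theta_mul_bijective (hT : TitsEndo θ) : Function.Bijective fun μ : F => θ μ * μ := by
  have hinj : Function.Injective fun μ : F => θ μ * μ := by
    intro p q hpq
    have hpq' : θ p * p = θ q * q := hpq
    by_cases hq : q = 0
    · subst hq
      simpa using hpq'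
    · have h1 : θ (p / q) * (p / q) = 1 := by
        rw [map_div₀, div_mul_div_comm, hpq', div_self (mul_ne_zero ((map_ne_zero θ).2 hq) hq)]
      have h2 : (p / q) ^ 2 * θ (p / q) = 1 := by
        have := congrArg θ h1
        rwa [map_mul, map_one, hT.sq] at this
      have h3 : p / q = 1 := by linear_combination h2 - (p / q) * h1
      rwa [div_eq_one_iff_eq hq] at h3
  exact ⟨hinj, Finite.injective_iff_surjective.1 hinj⟩

theorem aut_square (hT : TitsEndo θ) (α : MulAut (uGrp hT)) (a : F) :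
    α (uU hT 0 (θ a * a)) =
      uU hT 0 (θ (uA hT (α (uU hT a 0))) * uA hT (α (uU hT a 0))) := by
  have h1 : uU hT a 0 * uU hT a 0 = uU hT 0 (θ a * a) := by
    rw [uU_mul]; simp [CharTwo.add_self_eq_zero]
  rw [← h1, map_mul]
  nth_rewrite 1 2 [← uU_coord hT (α (uU hT a 0))]
  rw [uU_mul]
  simp [CharTwo.add_self_eq_zero]

/-- The automorphism adding a homomorphism into the centre. -/
noncomputable def centralAut (hT : TitsEndo θ) (g : F →+ F) : MulAut (uGrp hT) where
  toFun x := uU hT (uA hT x) (uB hT x + g (uA hT x))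
  invFun x := uU hT (uA hT x) (uB hT x + g (uA hT x))
  left_inv x := by
    show uU hT (uA hT (uU hT _ _)) _ = x
    rw [uA_uU, uB_uU, add_assoc, CharTwo.add_self_eq_zero, add_zero, uU_coord]
  right_inv x := by
    show uU hT (uA hT (uU hT _ _)) _ = x
    rw [uA_uU, uB_uU, add_assoc, CharTwo.add_self_eq_zero, add_zero, uU_coord]
  map_mul' x y := by
    obtain ⟨a, b, rfl⟩ := uU_surj hT x
    obtain ⟨c, e, rfl⟩ := uU_surj hT y
    rw [uU_mul, uA_uU, uB_uU, uA_uU, uB_uU, uA_uU, uB_uU, uU_mul, uU_inj, map_add]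
    exact ⟨rfl, by ring⟩

theorem centralAut_apply (hT : TitsEndo θ) (g : F →+ F) (a b : F) :
    centralAut hT g (uU hT a b) = uU hT a (b + g a) := by
  show uU hT (uA hT (uU hT a b)) _ = _
  rw [uA_uU, uB_uU]

theorem mem_ker_layerHom (hT : TitsEndo θ) (α : MulAut (uGrp hT)) :
    α ∈ (layerHom hT).ker ↔ ∃ g : F →+ F, centralAut hT g = α := by
  rw [MonoidHom.mem_ker]
  constructor
  · intro h
    have hA : ∀ a, uA hT (α (uU hT a 0)) = a := fun a => DFunLike.congr_fun h a
    have hB : ∀ b, α (uU hT 0 b) = uU hT 0 b := by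
      intro b
      obtain ⟨a, rfl⟩ := (theta_mul_bijective hT).2 b
      show α (uU hT 0 (θ a * a)) = _
      rw [aut_square, hA]
    have hG : ∀ a, α (uU hT a 0) = uU hT a (uB hT (α (uU hT a 0))) := fun a => by
      conv_lhs => rw [← uU_coord hT (α (uU hT a 0)), hA]
    refine ⟨AddMonoidHom.mk' (fun a => uB hT (α (uU hT a 0))) fun a c => ?_, ?_⟩
    · have e : uU hT a 0 * uU hT c 0 = uU hT (a + c) 0 * uU hT 0 (θ a * c) := by
        rw [uU_mul_central, uU_mul]; simp
      have e' := congrArg α e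
      rw [map_mul, map_mul, hB, hG a, hG c, hG (a + c), uU_mul, uU_mul, uU_inj, mul_zero] at e'
      linear_combination -e'.2
    · refine MulEquiv.ext fun x => ?_
      obtain ⟨a, b, rfl⟩ := uU_surj hT x
      rw [centralAut_apply]
      conv_rhs => rw [← uU_mul_central hT a b, map_mul, hB, hG a, uU_mul]
      simp [add_comm]
  · rintro ⟨g, rfl⟩
    refine Equiv.ext fun a => ?_
    show uA hT (centralAut hT g (uU hT a 0)) = a
    rw [centralAut_apply, uA_uU]

theorem centralAut_injective (hT : TitsEndo θ) : Function.Injective (centralAut hT) := by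
  intro g k h
  refine AddMonoidHom.ext fun a => ?_
  have := DFunLike.congr_fun h (uU hT a 0)
  rw [centralAut_apply, centralAut_apply, uU_inj] at this
  simpa using this.2

theorem centralAut_mul (hT : TitsEndo θ) (g k : F →+ F) :
    centralAut hT g * centralAut hT k = centralAut hT (g + k) := by
  refine MulEquiv.ext fun x => ?_
  obtain ⟨a, b, rfl⟩ := uU_surj hT x
  rw [MulAut.mul_apply, centralAut_apply, centralAut_apply, centralAut_apply, uU_inj]
  exact ⟨rfl, by simp; ring⟩

theorem ker_layerHom_elementary (hT : TitsEndo θ) :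
    Cfsg.IsElementaryAbelian 2 (layerHom hT).ker := by
  refine ⟨⟨⟨fun x y => Subtype.ext ?_⟩⟩, fun a ha => ?_⟩
  · obtain ⟨g, hg⟩ := (mem_ker_layerHom hT _).1 x.2
    obtain ⟨k, hk⟩ := (mem_ker_layerHom hT _).1 y.2
    rw [Subgroup.coe_mul, Subgroup.coe_mul, ← hg, ← hk, centralAut_mul, centralAut_mul, add_comm]
  · obtain ⟨g, rfl⟩ := (mem_ker_layerHom hT _).1 ha
    rw [pow_two, centralAut_mul]
    refine MulEquiv.ext fun x => ?_
    obtain ⟨a, b, rfl⟩ := uU_surj hT x
    rw [centralAut_apply, MulAut.one_apply, AddMonoidHom.add_apply, CharTwo.add_self_eq_zero,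
      add_zero]

theorem card_addHom {n : ℕ} (hn : Nat.card F = 2 ^ n) : Nat.card (F →+ F) = 2 ^ (n ^ 2) := by
  letI : Fintype F := Fintype.ofFinite F
  letI : Algebra (ZMod 2) F := ZMod.algebra F 2
  have hd : Module.finrank (ZMod 2) F = n := by
    have h := Module.natCard_eq_pow_finrank (K := ZMod 2) (V := F)
    rw [hn, Nat.card_zmod] at h
    exact (Nat.pow_right_injective le_rfl h).symm
  let e : (F →+ F) ≃ (F →ₗ[ZMod 2] F) :=
    { toFun := fun f => f.toZModLinearMap 2
      invFun := fun f => f.toAddMonoidHom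
      left_inv := fun f => rfl
      right_inv := fun f => rfl }
  rw [Nat.card_congr e, Module.natCard_eq_pow_finrank (K := ZMod 2), Nat.card_zmod,
    Module.finrank_linearMap, hd, pow_two]

theorem card_ker_layerHom (hT : TitsEndo θ) {n : ℕ} (hn : Nat.card F = 2 ^ n) :
    Nat.card (layerHom hT).ker = 2 ^ (n ^ 2) := by
  rw [← card_addHom hn]
  refine (Nat.card_eq_of_bijective (fun g : F →+ F =>
    (⟨centralAut hT g, (mem_ker_layerHom hT _).2 ⟨g, rfl⟩⟩ : (layerHom hT).ker)) ⟨?_, ?_⟩).symm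
  · exact fun g k h => centralAut_injective hT (congrArg Subtype.val h)
  · exact fun x => let ⟨g, hg⟩ := (mem_ker_layerHom hT _).1 x.2; ⟨g, Subtype.ext hg⟩

/-- A bijective additive map compatible with `a ↦ θ(a) a` is semilinear. -/
theorem semilinear_of_compat (hT : TitsEndo θ) (hcomm : ∀ (σ : F ≃+* F) (x : F), θ (σ x) = σ (θ x))
    (h4 : ∃ x : F, x ^ 4 ≠ x) (A : AddAut F) (B : F →+ F)
    (hB : ∀ a, B (θ a * a) = θ (A a) * A a) :
    ∃ (k : Fˣ) (σ : F ≃+* F), ∀ a, A a = (k : F) * σ a := by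
  classical
  letI : Fintype F := Fintype.ofFinite F
  haveI : Finite (F ≃+* F) := FieldAutBasis.finite_ringAut
  letI : Fintype (F ≃+* F) := Fintype.ofFinite _
  let φ : F ≃+* F := RingEquiv.ofBijective θ ⟨θ.injective, hT.surj⟩
  have hφ : ∀ x, φ x = θ x := fun _ => rfl
  obtain ⟨L, hL⟩ := FieldAutBasis.exists_coeff (F := F)
  set c : (F ≃+* F) → F := L (A : F →+ F)
  set d : (F ≃+* F) → F := L B
  have hA : ∀ x, A x = ∑ σ, c σ * σ x := fun x => by
    have := hL (A : F →+ F) x
    rwa [finsum_eq_sum_of_fintype] at this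
  have hD : ∀ x, B x = ∑ σ, d σ * σ x := fun x => by
    have := hL B x
    rwa [finsum_eq_sum_of_fintype] at this
  let e : (F ≃+* F) ≃ (F ≃+* F) :=
    { toFun := fun τ => τ.trans φ
      invFun := fun τ => τ.trans φ.symm
      left_inv := fun τ => RingEquiv.ext fun x => φ.symm_apply_apply _
      right_inv := fun τ => RingEquiv.ext fun x => φ.apply_symm_apply _ }
  let v : (F ≃+* F) → F := fun β => θ (c (e.symm β))
  let K : (F ≃+* F) × (F ≃+* F) → F := fun p => c p.1 * v p.2 + (if p.2 = e p.1 then d p.1 else 0)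
  have hθA : ∀ x, θ (A x) = ∑ β, v β * β x := by
    intro x
    rw [hA, map_sum]
    conv_rhs => rw [← e.sum_comp]
    refine Finset.sum_congr rfl fun τ _ => ?_
    simp only [v, e.symm_apply_apply, map_mul]
    rfl
  have hK : ∀ a b, ∑ p : (F ≃+* F) × (F ≃+* F), K p * (p.1 a * p.2 b) =
      A a * θ (A b) + B (θ b * a) := by
    intro a b
    rw [Fintype.sum_prod_type, hA a, hθA b, Finset.sum_mul_sum, hD, ← Finset.sum_add_distrib]
    refine Finset.sum_congr rfl fun σ _ => ?_
    simp only [K, add_mul, ite_mul, zero_mul, Finset.sum_add_distrib, Finset.sum_ite_eq',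
      Finset.mem_univ, if_true]
    refine congrArg₂ (· + ·) (Finset.sum_congr rfl fun β _ => by ring) ?_
    rw [map_mul, show (e σ) b = φ (σ b) from rfl, hφ, hcomm]
    ring
  have hdiag : ∀ a, ∑ p : (F ≃+* F) × (F ≃+* F), K p * (p.1 a * p.2 a) = 0 := fun a => by
    rw [hK, hB, mul_comm (A a), CharTwo.add_self_eq_zero]
  have hsym : ∀ p : (F ≃+* F) × (F ≃+* F), K (p.2, p.1) = K p := by
    intro p
    refine CharTwo.add_eq_zero.1 (SuzukiTwo.pair_indep
      (fun p : (F ≃+* F) × (F ≃+* F) => K (p.2, p.1) + K p) (fun x y => ?_) p)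
    have h1 := hdiag (x + y)
    simp only [map_add, mul_add, add_mul, Finset.sum_add_distrib, hdiag, zero_add, add_zero] at h1
    simp only [add_mul, Finset.sum_add_distrib]
    rw [← h1]
    refine congrArg₂ (· + ·) ?_ ?_
    · first
        | rfl
        | (rw [← (Equiv.prodComm _ _).sum_comp]
           exact Finset.sum_congr rfl fun p _ => by
             simp only [Equiv.prodComm_apply, Prod.fst_swap, Prod.snd_swap]; ring)
    · first
        | rfl
        | (rw [← (Equiv.prodComm _ _).sum_comp]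
           exact Finset.sum_congr rfl fun p _ => by
             simp only [Equiv.prodComm_apply, Prod.fst_swap, Prod.snd_swap]; ring)
  have hne : ∀ α, α ≠ e α := by
    intro α h
    obtain ⟨z, hz0, hz1⟩ := hT.big
    obtain ⟨w, rfl⟩ := α.surjective z
    have h1 : θ (α w) = α w := (RingEquiv.congr_fun h w).symm
    exact hz1 (mul_left_cancel₀ hz0 (by linear_combination (hT.sq (α w) ▸ (by rw [h1, h1]) :
      α w ^ 2 = α w)))
  have hKdiag : ∀ α, c α * v α = 0 := by
    have hz : ∀ a, ∑ α, K (α, α) * (α a * α a) = 0 := by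
      intro a
      have h1 := hdiag a
      rw [← Finset.sum_filter_add_sum_filter_not Finset.univ
        (fun p : (F ≃+* F) × (F ≃+* F) => p.1 = p.2)] at h1
      have hoff : ∑ p ∈ Finset.univ.filter (fun p : (F ≃+* F) × (F ≃+* F) => ¬ p.1 = p.2),
          K p * (p.1 a * p.2 a) = 0 := by
        refine Finset.sum_involution (fun p _ => (p.2, p.1)) (fun p _ => ?_) (fun p hp _ h => ?_)
          (fun p hp => ?_) (fun p _ => rfl)
        · rw [hsym, mul_comm (p.2 a), CharTwo.add_self_eq_zero]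
        · exact (Finset.mem_filter.1 hp).2 (congrArg Prod.fst h).symm
        · exact Finset.mem_filter.2 ⟨Finset.mem_univ _, fun h => (Finset.mem_filter.1 hp).2 h.symm⟩
      rw [hoff, add_zero] at h1
      rw [← h1]
      refine Finset.sum_bij' (fun α _ => (α, α)) (fun p _ => p.1) (fun α _ => by simp)
        (fun p _ => Finset.mem_univ _) (fun α _ => rfl)
        (fun p hp => Prod.ext rfl (Finset.mem_filter.1 hp).2) (fun α _ => rfl)
    have hli := Fintype.linearIndependent_iff.mp (FieldAutBasis.linearIndependent_ringAut (F := F))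
    have hzero := hli (fun α => K (α, α)) (funext fun x => by
      obtain ⟨a, rfl⟩ := sq_surjective (F := F) x
      rw [Finset.sum_apply, Pi.zero_apply, ← hz a]
      refine Finset.sum_congr rfl fun α _ => ?_
      show K (α, α) * α (a ^ 2) = _
      rw [map_pow, pow_two])
    intro α
    have := hzero α
    simpa [K, hne α] using this
  have hfour : ∀ i j, c i ≠ 0 → c j ≠ 0 → i ≠ j → i = e (e j) := by
    intro i j hi hj hij
    by_contra h
    have hvi : v i = 0 := (mul_eq_zero.1 (hKdiag i)).resolve_left hi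
    have hvj : v (e j) ≠ 0 := by
      simp only [v, e.symm_apply_apply]
      exact (map_ne_zero θ).2 hj
    have h1 := hsym (i, e j)
    simp only [K, hvi, mul_zero, if_neg (show e j ≠ e i from fun x => hij (e.injective x).symm),
      if_neg (show i ≠ e (e j) from h), add_zero] at h1
    exact mul_ne_zero hi hvj h1.symm
  obtain ⟨σ, hσ⟩ : ∃ σ, c σ ≠ 0 := by
    by_contra h
    push Not at h
    have := hA 1
    rw [Finset.sum_eq_zero (fun σ _ => by rw [h σ, zero_mul])] at this
    exact one_ne_zero (A.injective (this.trans (map_zero A).symm))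
  refine ⟨Units.mk0 _ hσ, σ, fun a => ?_⟩
  rw [hA, Units.val_mk0]
  refine Finset.sum_eq_single σ (fun τ _ hτ => ?_) (fun h => absurd (Finset.mem_univ σ) h)
  by_contra h
  have hτ0 : c τ ≠ 0 := fun e => h (by rw [e, zero_mul])
  have h1 := hfour σ τ hσ hτ0 (Ne.symm hτ)
  have h2 := hfour τ σ hτ0 hσ hτ
  obtain ⟨x, hx⟩ := h4
  obtain ⟨w, rfl⟩ := σ.surjective x
  refine hx ?_
  conv_rhs => rw [h1, h2]
  show _ = θ (θ (θ (θ (σ w))))
  rw [hT.sq, hT.sq, ← pow_mul]

/-- The semilinear automorphisms. -/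
noncomputable def semiAut (hT : TitsEndo θ) (hcomm : ∀ (σ : F ≃+* F) (x : F), θ (σ x) = σ (θ x))
    (k : Fˣ) (σ : F ≃+* F) : MulAut (uGrp hT) := by
  refine MulEquiv.ofBijective (MonoidHom.mk' (fun x => uU hT ((k : F) * σ (uA hT x))
    (θ k * k * σ (uB hT x))) fun x y => ?_) ?_
  · obtain ⟨a, b, rfl⟩ := uU_surj hT x
    obtain ⟨c, d, rfl⟩ := uU_surj hT y
    rw [uU_mul, uA_uU, uB_uU, uA_uU, uB_uU, uA_uU, uB_uU, uU_mul, uU_inj, map_mul, hcomm]
    simp only [map_add, map_mul]
    exact ⟨by ring, by ring⟩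
  · rw [← Finite.injective_iff_bijective]
    intro x y h
    obtain ⟨h1, h2⟩ := (uU_inj hT).1 h
    rw [← uU_coord hT x, ← uU_coord hT y, σ.injective (mul_left_cancel₀ k.ne_zero h1),
      σ.injective (mul_left_cancel₀ (mul_ne_zero ((map_ne_zero θ).2 k.ne_zero) k.ne_zero) h2)]

theorem card_range_layerHom (hT : TitsEndo θ)
    (hcomm : ∀ (σ : F ≃+* F) (x : F), θ (σ x) = σ (θ x)) (h4 : ∃ x : F, x ^ 4 ≠ x) :
    Nat.card (layerHom hT).range = Nat.card Fˣ * Nat.card (F ≃+* F) := by
  have happ : ∀ k σ a, layerHom hT (semiAut hT hcomm k σ) a = (k : F) * σ a := fun k σ a => by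
    show uA hT (uU hT _ _) = _
    rw [uA_uU, uA_uU]
  rw [← Nat.card_prod]
  refine (Nat.card_eq_of_bijective (fun p : Fˣ × (F ≃+* F) =>
    (⟨layerHom hT (semiAut hT hcomm p.1 p.2), _, rfl⟩ : (layerHom hT).range)) ⟨?_, ?_⟩).symm
  · rintro ⟨k, σ⟩ ⟨k', σ'⟩ h
    have h' : ∀ a, (k : F) * σ a = (k' : F) * σ' a := fun a => by
      rw [← happ, ← happ]
      exact DFunLike.congr_fun (congrArg Subtype.val h) a
    have hk : k = k' := Units.ext (by simpa using h' 1)
    subst hk
    exact Prod.ext rfl (RingEquiv.ext fun a => mul_left_cancel₀ k.ne_zero (h' a))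
  · rintro ⟨_, α, rfl⟩
    let B : F →+ F := AddMonoidHom.mk' (fun b => uB hT (α (uU hT 0 b))) fun b d => by
      have e : uU hT 0 b * uU hT 0 d = uU hT 0 (b + d) := by rw [uU_mul]; simp
      have e' := congrArg α e
      rw [map_mul, ← uU_coord hT (α (uU hT 0 b)), ← uU_coord hT (α (uU hT 0 d)),
        ← uU_coord hT (α (uU hT 0 (b + d))), uU_mul, uU_inj, uA_aut_central, uA_aut_central,
        map_zero, zero_mul, add_zero] at e'
      simpa using e'.2.symm
    obtain ⟨k, σ, hkσ⟩ := semilinear_of_compat hT hcomm h4 (layerAut hT α) B (fun a => by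
      show uB hT (α (uU hT 0 (θ a * a))) = _
      rw [aut_square, uB_uU]
      rfl)
    exact ⟨(k, σ), Subtype.ext (Equiv.ext fun a => (happ k σ a).trans (hkσ a).symm)⟩

end CfsgLib.Suzuki
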