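import Cfsg.Agent.Suzuki.OddSubgroups
import Mathlib.GroupTheory.GroupAction.MultipleTransitivity

/-!
Transitive actions of the ovoid group in which non-identity elements fix at most two points.
-/

set_option autoImplicit false

namespace CfsgLib.Suzuki

section Generic

variable {G Ω : Type*} [Group G] [MulAction G Ω] [Finite Ω]

/-- If `g` maps the fixed points of `z` to themselves and `z` fixes at most two points, `g²` fixes each of them. -/
theorem sq_fix_of_small {z g : G} (hz : Nat.card (MulAction.fixedBy Ω z) ≤ 2)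
    (hg : ∀ p : Ω, z • p = p → z • (g • p) = g • p) {p : Ω} (hp : z • p = p) : g • g • p = p := by
  by_cases h : g • p = p
  · rw [h, h]
  · by_contra hne
    have h3 : g • g • p ≠ g • p := fun e => h (MulAction.injective g e)
    have hsub : ({p, g • p, g • g • p} : Set Ω) ⊆ MulAction.fixedBy Ω z := by
      intro x hx
      simp only [Set.mem_insert_iff, Set.mem_singleton_iff] at hx
      rcases hx with rfl | rfl | rfl
      · exact hp
      · exact hg _ hp
      · exact hg _ (hg _ hp)
    have hc := Set.ncard_le_ncard hsub (Set.toFinite _)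
    rw [← Nat.card_coe_set_eq (s := MulAction.fixedBy Ω z)] at hc
    rw [Set.ncard_eq_three.2 ⟨p, g • p, g • g • p, Ne.symm h, Ne.symm hne, Ne.symm h3, rfl⟩] at hc
    omega

theorem eq_of_two_fixed {z : G} (hz : Nat.card (MulAction.fixedBy Ω z) ≤ 2) {p a b : Ω}
    (hp : z • p = p) (ha : z • a = a) (hb : z • b = b) (hap : a ≠ p) (hbp : b ≠ p) : a = b := by
  by_contra hne
  have hsub : ({p, a, b} : Set Ω) ⊆ MulAction.fixedBy Ω z := by
    intro x hx
    simp only [Set.mem_insert_iff, Set.mem_singleton_iff] at hx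
    rcases hx with rfl | rfl | rfl
    · exact hp
    · exact ha
    · exact hb
  have hc := Set.ncard_le_ncard hsub (Set.toFinite _)
  rw [← Nat.card_coe_set_eq (s := MulAction.fixedBy Ω z)] at hc
  rw [Set.ncard_eq_three.2 ⟨p, a, b, Ne.symm hap, Ne.symm hbp, hne, rfl⟩] at hc
  omega

end Generic

variable {F : Type*} [Field F] [CharP F 2] [Finite F] {θ : F →+* F}

theorem mul_theta_surjective (hT : TitsEndo θ) : Function.Surjective fun x : F => x * θ x := by
  refine Finite.injective_iff_surjective.1 fun x y h => ?_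
  have h' : θ x * x ^ 2 = θ y * y ^ 2 := by
    rw [← hT.sq x, ← hT.sq y, ← map_mul, ← map_mul]; exact congrArg θ h
  by_cases hy : y = 0
  · subst hy
    simpa using h
  · have hy2 : θ y ≠ 0 := (map_ne_zero θ).2 hy
    have hxy : x * (x * θ x) = y * (x * θ x) := by
      calc x * (x * θ x) = θ x * x ^ 2 := by ring
        _ = θ y * y ^ 2 := h'
        _ = y * (y * θ y) := by ring
        _ = y * (x * θ x) := by rw [h]
    exact mul_right_cancel₀ (by rw [h]; exact mul_ne_zero hy hy2) hxy

/-- A stabiliser containing an involution of the translations contains the point stabiliser at infinity. -/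
theorem stabInf_le_stabilizer (hT : TitsEndo θ) {Ω : Type*} [Finite Ω] [MulAction (grp θ) Ω]
    (hfix : ∀ g : grp θ, g ≠ 1 → Nat.card (MulAction.fixedBy Ω g) ≤ 2) {α : Ω} {b : F} (hb : b ≠ 0)
    (hα : uElt hT 0 b • α = α) : stabInf θ ≤ MulAction.stabilizer (grp θ) α := by
  have hne : ∀ c : F, c ≠ 0 → uElt hT 0 c ≠ 1 := fun c hc e => hc (by
    rw [← uElt_zero hT, uElt_inj] at e; exact e.2)
  have hcomm : ∀ a c e : F, uElt hT a c * uElt hT 0 e = uElt hT 0 e * uElt hT a c := by
    intro a c e
    rw [uElt_mul, uElt_mul, uElt_inj, map_zero]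
    exact ⟨by ring, by ring⟩
  have hsq : ∀ (e a c : F) (p : Ω), e ≠ 0 → uElt hT 0 e • p = p →
      uElt hT a c • uElt hT a c • p = p := fun e a c p he hp =>
    sq_fix_of_small (hfix _ (hne e he)) (fun x hx => by rw [← mul_smul, ← hcomm, mul_smul, hx]) hp
  -- the centre of the translations fixes `α`
  have hZ : ∀ e, uElt hT 0 e • α = α := by
    intro e
    obtain ⟨a, ha⟩ := mul_theta_surjective hT e
    have h := hsq b a 0 α hb hα
    rw [← mul_smul, uElt_mul] at h
    rw [← h]
    congr 1
    rw [uElt_inj]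
    exact ⟨(CharTwo.add_self_eq_zero a).symm, by simpa [mul_comm] using ha.symm⟩
  have hZu : ∀ e a c, uElt hT 0 e • (uElt hT a c • α) = uElt hT a c • α := fun e a c => by
    rw [← mul_smul, ← hcomm, mul_smul, hZ e]
  have hdiff : ∀ a c e, uElt hT a e • α = uElt hT a c • α := by
    intro a c e
    rw [show uElt hT a e = uElt hT a c * uElt hT 0 (c + e) by
      rw [uElt_mul, uElt_inj]; exact ⟨by ring, by linear_combination (-c) * (two_eq_zero : (2 : F) = 0)⟩,
      mul_smul, hZ]
  have hU : ∀ a c, uElt hT a c • α = α := by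
    by_contra hcon
    push Not at hcon
    obtain ⟨a0, c0, h0⟩ := hcon
    have htwo : ∀ a c, uElt hT a c • α ≠ α → uElt hT a c • α = uElt hT a0 c0 • α := fun a c h =>
      eq_of_two_fixed (hfix _ (hne b hb)) hα (hZu b a c) (hZu b a0 c0) h h0
    -- the torus fixes `α`
    have ht : ∀ t : Fˣ, tElt hT t • α = α := by
      intro t
      obtain ⟨s, hs⟩ := sq_surjective (F := F) (t : F)
      have hs0 : s ≠ 0 := by rintro rfl; exact t.ne_zero (by rw [← hs]; simp)
      set σ := tElt hT (Units.mk0 s hs0) with hσ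
      have e : tElt hT t = σ * σ := by
        rw [hσ, tElt_mul]; congr 1; ext; simp [← hs, sq]
      rw [e, mul_smul]
      refine sq_fix_of_small (hfix _ (hne b hb)) (fun p hp => ?_) hα
      have hc : ∀ e0, uElt hT 0 e0 • p = p := by
        intro e0
        by_cases hpα : p = α
        · rw [hpα]; exact hZ e0
        · rw [eq_of_two_fixed (hfix _ (hne b hb)) hα hp (hZu b a0 c0) hpα h0]
          exact hZu e0 a0 c0
      have h2 := tElt_conj_uElt hT (Units.mk0 s hs0) 0
        (b / ((s : F) ^ 2 * θ s))
      rw [mul_zero, Units.val_mk0, mul_div_cancel₀ _ (mul_ne_zero (pow_ne_zero 2 hs0) ((map_ne_zero θ).2 hs0)),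
        ← hσ] at h2
      rw [← h2, mul_smul, mul_smul, inv_smul_smul, hc]
    have hscale : ∀ (t : Fˣ) a, uElt hT a 0 • α = α → uElt hT (θ t * a) 0 • α = α := by
      intro t a ha
      have h := congrArg (fun g : grp θ => g • α) (tElt_conj_uElt hT t a 0)
      simp only [mul_smul] at h
      rw [show (tElt hT t)⁻¹ • α = α from inv_smul_eq_iff.2 (ht t).symm, ha, ht t] at h
      rw [mul_zero] at h
      exact h.symm
    have hadd : ∀ a a', uElt hT a 0 • α ≠ α → uElt hT a' 0 • α ≠ α → uElt hT (a + a') 0 • α = α := by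
      intro a a' ha ha'
      have h := htwo a 0 ha
      rw [← htwo a' 0 ha', ← inv_smul_eq_iff, ← mul_smul, uElt_inv, uElt_mul, hdiff _ 0] at h
      rw [CharTwo.neg_eq, add_comm] at h
      exact h
    have hall : ∀ a, uElt hT a 0 • α = α := by
      intro a
      by_contra ha
      obtain ⟨z, hz0, hz1⟩ := hT.big
      have ha0 : a ≠ 0 := fun e => ha (by rw [e]; exact hZ 0)
      by_cases hz : uElt hT (z * a) 0 • α = α
      · obtain ⟨w, hw⟩ := hT.surj z⁻¹
        have hw0 : w ≠ 0 := by rintro rfl; exact hz0 (by simpa using hw.symm)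
        have := hscale (Units.mk0 w hw0) _ hz
        rw [Units.val_mk0, hw, inv_mul_cancel_left₀ hz0] at this
        exact ha this
      · have h1 := hadd _ _ ha hz
        obtain ⟨w, hw⟩ := hT.surj (1 + z)⁻¹
        have h1z : 1 + z ≠ 0 := fun e => hz1 (by linear_combination e - (two_eq_zero : (2 : F) = 0))
        have hw0 : w ≠ 0 := by rintro rfl; exact h1z (by simpa using hw.symm)
        have := hscale (Units.mk0 w hw0) _ h1
        rw [Units.val_mk0, hw, show a + z * a = (1 + z) * a by ring, inv_mul_cancel_left₀ h1z] at this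
        exact ha this
    exact h0 (by rw [hdiff a0 0 c0]; exact hall a0)
  have ht : ∀ t : Fˣ, tElt hT t • α = α := by
    intro t
    obtain ⟨s, hs⟩ := sq_surjective (F := F) (t : F)
    have hs0 : s ≠ 0 := by rintro rfl; exact t.ne_zero (by rw [← hs]; simp)
    have key : ∀ s : Fˣ, uElt hT 0 b • (tElt hT s • α) = tElt hT s • α := by
      intro s
      have h2 := tElt_conj_uElt hT s 0 (b / ((s : F) ^ 2 * θ s))
      rw [mul_zero, mul_div_cancel₀ _ (mul_ne_zero (pow_ne_zero 2 s.ne_zero)
        ((map_ne_zero θ).2 s.ne_zero))] at h2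
      rw [← h2, mul_smul, mul_smul, inv_smul_smul, hZ]
    -- the orbit of the torus has at most two points and odd length
    set σ := tElt hT (Units.mk0 s hs0) with hσ
    have e : tElt hT t = σ * σ := by
      rw [hσ, tElt_mul]; congr 1; ext; simp [← hs, sq]
    rw [e, mul_smul]
    by_contra hne'
    have h1 : σ • α ≠ α := fun h => hne' (by rw [h, h])
    have h2 := eq_of_two_fixed (hfix _ (hne b hb)) hα (by rw [← mul_smul σ, hσ, tElt_mul]; exact key _)
      (key (Units.mk0 s hs0)) hne' h1
    exact h1 (MulAction.injective σ h2)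
  intro g hg
  obtain ⟨a, c, t, rfl⟩ := exists_of_mem_stabInf hT hg
  rw [MulAction.mem_stabilizer_iff, mul_smul, ht, hU]

section Main

variable {F : Type*} [Field F] [Fintype F] [CharP F 2] {m : ℕ}

theorem fixity_two (hm : 1 ≤ m) (hF : Fintype.card F = 2 ^ (2 * m + 1)) {G : Type*} [Group G]
    (e : G ≃* grp (theta F m)) {Ω : Type*} [Finite Ω] [MulAction G Ω] [FaithfulSMul G Ω]
    (htr : MulAction.IsPretransitive G Ω)
    (hfix : ∀ g : G, g ≠ 1 → Nat.card (MulAction.fixedBy Ω g) ≤ 2)
    (hex : ∃ g : G, g ≠ 1 ∧ Nat.card (MulAction.fixedBy Ω g) = 2) :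
    (Nat.card Ω = Nat.card F ^ 2 + 1 ∧ MulAction.IsMultiplyPretransitive G Ω 2) ∨
    (Nat.card Ω = Nat.card F ^ 2 * (Nat.card F ^ 2 + 1) ∧
      ∀ α : Ω, Nat.card (MulAction.stabilizer G α) = Nat.card F - 1) := by
  set hT := titsEndo_theta hm hF
  letI : MulAction (grp (theta F m)) Ω := MulAction.compHom Ω e.symm.toMonoidHom
  have hsmul : ∀ (g : G) (x : Ω), e g • x = g • x := fun g x => by
    show e.symm (e g) • x = g • x
    rw [e.symm_apply_apply]
  have hfix' : ∀ g : grp (theta F m), g ≠ 1 → Nat.card (MulAction.fixedBy Ω g) ≤ 2 := fun g hg =>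
    hfix (e.symm g) (fun h => hg (e.symm.injective (h.trans (map_one _).symm)))
  have htr' : MulAction.IsPretransitive (grp (theta F m)) Ω :=
    ⟨fun x y => by
      obtain ⟨g, hg⟩ := htr.exists_smul_eq x y
      exact ⟨e g, by rw [hsmul, hg]⟩⟩
  haveI := htr'
  obtain ⟨g0, hg0, hg0fix⟩ := hex
  have : Nontrivial (MulAction.fixedBy Ω g0) := Finite.one_lt_card_iff_nontrivial.1 (by omega)
  obtain ⟨⟨β, hβ⟩, -⟩ := exists_ne (Classical.arbitrary (MulAction.fixedBy Ω g0))
  have hne1 : e g0 ≠ 1 := fun h => hg0 (e.injective (h.trans (map_one e).symm))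
  have hβ' : e g0 • β = β := by rw [hsmul]; exact hβ
  have hidx : ∀ α : Ω, (MulAction.stabilizer (grp (theta F m)) α).index = Nat.card Ω := fun α =>
    MulAction.index_stabilizer_of_transitive _ α
  have hGcard : ∀ α : Ω, Nat.card (MulAction.stabilizer (grp (theta F m)) α) * Nat.card Ω =
      Nat.card F ^ 2 * (Nat.card F ^ 2 + 1) * (Nat.card F - 1) := fun α => by
    rw [← hidx α, Subgroup.card_mul_index, card_grp hT]
  by_cases hev : 2 ∣ Nat.card (MulAction.stabilizer (grp (theta F m)) β)
  · -- an involution fixes a point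
    left
    haveI : Fact (Nat.Prime 2) := ⟨Nat.prime_two⟩
    obtain ⟨⟨z, hzβ⟩, hz⟩ := exists_prime_orderOf_dvd_card' 2 hev
    rw [Subgroup.orderOf_mk] at hz
    have hz1 : z ≠ 1 := fun h => by rw [h, orderOf_one] at hz; omega
    rcases translation_or_centralizer hm hF hz1 with ⟨x, hx⟩ | ⟨-, hk⟩
    swap
    · exfalso
      have h2 : 2 ∣ Nat.card (Subgroup.centralizer {z}) :=
        hz ▸ orderOf_mem_centralizer (g := z) (h := z) rfl
      have := Nat.odd_iff.1 (odd_of_mem_orders hm hk).1
      omega
    obtain ⟨a, b, hab⟩ := hx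
    replace hab : uElt hT a b = x⁻¹ * z * x := hab.symm
    have hne : uElt hT a b ≠ 1 := by
      rw [hab]; exact fun h => hz1 (by
        calc z = x * (x⁻¹ * z * x) * x⁻¹ := by group
          _ = 1 := by rw [h]; group)
    have ha : a = 0 := by
      refine (orderOf_translation hT hne).1 ?_
      rw [hab, ← hz, show x⁻¹ * z * x = MulAut.conj x⁻¹ z by simp]
      exact orderOf_injective (MulAut.conj x⁻¹).toMonoidHom (MulAut.conj x⁻¹).injective z
    subst ha
    have hb : b ≠ 0 := fun h => hne (by rw [h, uElt_zero])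
    set α := x⁻¹ • β with hα
    have hzα : uElt hT 0 b • α = α := by
      rw [hab, hα, mul_smul, mul_smul, smul_inv_smul]
      congr 1
    have hle := stabInf_le_stabilizer hT hfix' hb hzα
    have hne_top : MulAction.stabilizer (grp (theta F m)) α ≠ ⊤ := by
      intro htop
      have h1 : ∀ y : Ω, y = α := fun y => by
        obtain ⟨g, rfl⟩ := MulAction.exists_smul_eq (grp (theta F m)) α y
        exact MulAction.mem_stabilizer_iff.1 (htop ▸ Subgroup.mem_top g)
      haveI : Subsingleton Ω := ⟨fun a b => (h1 a).trans (h1 b).symm⟩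
      exact hg0 (FaithfulSMul.eq_of_smul_eq_smul (α := Ω) fun y => Subsingleton.elim _ _)
    have heq : MulAction.stabilizer (grp (theta F m)) α = stabInf (theta F m) :=
      ((isCoatom_stabInf hT).le_iff_eq hne_top).1 hle
    refine ⟨?_, ?_⟩
    · rw [← hidx α, heq, MulAction.index_stabilizer, orbit_pInf hT, ncard_ovoid]
    · rw [MulAction.is_two_pretransitive_iff]
      have hnorm : ∀ y : Ω, y ≠ α → ∃ g : grp (theta F m), g • α = α ∧ g • y = wElt hT • α := by
        intro y hy
        obtain ⟨g, rfl⟩ := MulAction.exists_smul_eq (grp (theta F m)) α y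
        rcases grp_cases hT g.2 with ⟨a, c, t, h⟩ | ⟨a, c, a', c', t, h⟩
        · exfalso
          refine hy (hle ?_)
          show g • (pInf : Projectivization F (Fin 4 → F)) = pInf
          show (g : Matrix.SpecialLinearGroup (Fin 4) F) • (pInf : Projectivization F (Fin 4 → F)) = pInf
          rw [h, mul_smul, tMat_smul_pInf, uMat_smul_pInf]
        · refine ⟨(uElt hT a c)⁻¹, ?_, ?_⟩
          · exact hle (inv_mem (uGrp_le_stabInf hT (uElt_mem hT a c)))
          · have hg : g = uElt hT a c * wElt hT * (uElt hT a' c' * tElt hT t) := Subtype.ext h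
            rw [hg, mul_smul, mul_smul (uElt hT a c), inv_smul_smul]
            congr 1
            exact hle (mul_mem (uGrp_le_stabInf hT (uElt_mem hT a' c')) (tElt_mem_stabInf hT t))
      have hpair : ∀ a c : Ω, a ≠ c → ∃ g : grp (theta F m), g • a = α ∧ g • c = wElt hT • α := by
        intro a c hac
        obtain ⟨g, hg⟩ := MulAction.exists_smul_eq (grp (theta F m)) a α
        obtain ⟨k, hk1, hk2⟩ := hnorm (g • c) (fun h => hac (MulAction.injective g (hg.trans h.symm)))
        exact ⟨k * g, by rw [mul_smul, hg, hk1], by rw [mul_smul, hk2]⟩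
      intro a b c d hab' hcd
      obtain ⟨g, hg1, hg2⟩ := hpair a b hab'
      obtain ⟨k, hk1, hk2⟩ := hpair c d hcd
      refine ⟨e.symm (k⁻¹ * g), ?_, ?_⟩
      · show (k⁻¹ * g) • a = c
        rw [mul_smul, hg1, inv_smul_eq_iff, hk1]
      · show (k⁻¹ * g) • b = d
        rw [mul_smul, hg2, inv_smul_eq_iff, hk2]
  · -- the stabiliser has odd order
    right
    set H := MulAction.stabilizer (grp (theta F m)) β with hH
    have hHodd : Odd (Nat.card H) := Nat.odd_iff.2 (by omega)
    have hH1 : H ≠ ⊥ := fun h => hne1 (Subgroup.mem_bot.1 (h ▸ (hβ' : e g0 ∈ H)))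
    obtain ⟨g, hgH, hg1, hHN⟩ := exists_torus_of_odd hm hF hHodd hH1 Subgroup.le_normalizer
    obtain ⟨hc, hC, hcases⟩ := torus_cases hm hF hg1 (not_translation_of_odd hm hF hg1
      (Odd.of_dvd_nat hHodd (Subgroup.orderOf_dvd_natCard _ hgH)))
    set C := Subgroup.centralizer {g} with hCdef
    set N := Subgroup.normalizer (C : Set (grp (theta F m))) with hNdef
    have hCodd : Odd (Nat.card C) := by
      rcases hcases with ⟨h, -⟩ | ⟨h | h, -⟩ <;> rw [h] <;>
        exact (odd_of_mem_orders hm (by simp)).1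
    have hCH : C ≤ H := by
      intro c hc'
      have hcg := Subgroup.mem_centralizer_singleton_iff.1 hc'
      have h2 : c • c • β = β := sq_fix_of_small (hfix' g hg1) (fun p hp => by
        rw [← mul_smul, ← hcg, mul_smul, hp]) hgH
      have hodd : Odd (orderOf c) := Odd.of_dvd_nat hCodd (Subgroup.orderOf_dvd_natCard _ hc')
      obtain ⟨j, hj⟩ := exists_pow_eq_self_of_coprime (x := c) (n := 2)
        (Nat.coprime_two_left.2 hodd)
      show c • β = β
      rw [← hj]
      refine (pow_mem ?_ j : (c ^ 2) ^ j ∈ H)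
      show c ^ 2 • β = β
      rw [pow_two, mul_smul, h2]
    have hdvd : Nat.card C ∣ Nat.card H := Subgroup.card_dvd_of_le hCH
    have hHN' : Nat.card H ∣ Nat.card N := Subgroup.card_dvd_of_le hHN
    rcases hcases with ⟨hk, hN⟩ | ⟨hk, hN⟩
    · have hCpos : 0 < Nat.card C := Nat.card_pos
      have heq : Nat.card H = Nat.card C := by
        obtain ⟨d, hd⟩ := hdvd
        have hle : Nat.card H ≤ Nat.card N := Nat.le_of_dvd Nat.card_pos hHN'
        have hd2 : d ≤ 2 := by
          by_contra h
          have : Nat.card C * 3 ≤ Nat.card C * d := Nat.mul_le_mul_left _ (by omega)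
          omega
        rcases d with _ | _ | _ | d
        · exact absurd hd (by rw [mul_zero]; exact Nat.card_pos.ne')
        · simpa using hd
        · exact absurd (hd ▸ hHodd) (Nat.not_odd_iff_even.2 (even_two.mul_left _))
        · omega
      have hcardΩ : Nat.card Ω = Nat.card F ^ 2 * (Nat.card F ^ 2 + 1) := by
        have h := hGcard β
        rw [← hH, heq, hk, ← Nat.card_eq_fintype_card (α := F) |>.trans hF] at h
        have hpos : 0 < Nat.card F - 1 := by have := Finite.one_lt_card (α := F); omega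
        exact Nat.eq_of_mul_eq_mul_left hpos (by rw [h]; ring)
      refine ⟨hcardΩ, fun α => ?_⟩
      have h := hGcard α
      have hpos : 0 < Nat.card Ω := by rw [hcardΩ]; have := Finite.one_lt_card (α := F); positivity
      rw [← Nat.eq_of_mul_eq_mul_right hpos (h.trans (by rw [hcardΩ]; ring :
        Nat.card F ^ 2 * (Nat.card F ^ 2 + 1) * (Nat.card F - 1) = (Nat.card F - 1) * Nat.card Ω))]
      exact Nat.card_congr ((e.subgroupMap (MulAction.stabilizer G α)).toEquiv.trans
        (MulEquiv.subgroupCongr (by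
          ext x
          erw [Subgroup.mem_map_equiv]
          rfl)).toEquiv)
    · exfalso
      have heq : Nat.card H = Nat.card C := by
        obtain ⟨d, hd⟩ := hdvd
        obtain ⟨d', hd'⟩ := hHN'
        have h4 : d * d' = 4 := by
          refine Nat.eq_of_mul_eq_mul_left (Nat.card_pos (α := C)) ?_
          rw [← mul_assoc, ← hd, ← hd', hN, mul_comm]
        have hdodd : Odd d := (Nat.odd_mul.1 (hd ▸ hHodd)).2
        have hd4 : d ∣ 4 := Dvd.intro d' h4
        have hd1 : d ≤ 4 := Nat.le_of_dvd (by norm_num) hd4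
        interval_cases d
        · exact absurd hdodd (by decide)
        · simpa using hd
        · exact absurd hdodd (by decide)
        · exact absurd hd4 (by decide)
        · exact absurd hdodd (by decide)
      have hCeq : C = H := Subgroup.eq_of_le_of_card_ge hCH heq.le
      have hsub : MulAction.orbit N β ⊆ MulAction.fixedBy Ω g := by
        rintro _ ⟨⟨n, hn⟩, rfl⟩
        show g • n • β = n • β
        have h : n⁻¹ * g * n ∈ C :=
          (Subgroup.mem_normalizer_iff''.1 hn g).1 (Subgroup.mem_centralizer_singleton_iff.2 rfl)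
        have h' : (n⁻¹ * g * n) • β = β := hCH h
        rwa [mul_smul, mul_smul, inv_smul_eq_iff] at h'
      have h2 := (Set.ncard_le_ncard hsub (Set.toFinite _))
      rw [← Nat.card_coe_set_eq (s := MulAction.fixedBy Ω g), ← MulAction.index_stabilizer] at h2
      have hst : MulAction.stabilizer N β = H.subgroupOf N := rfl
      rw [hst] at h2
      have h3 := Subgroup.card_mul_index (H.subgroupOf N)
      rw [Nat.card_congr (Subgroup.subgroupOfEquivOfLe hHN).toEquiv, heq, hN, mul_comm 4] at h3
      have h4 := Nat.eq_of_mul_eq_mul_left (Nat.card_pos (α := C)) h3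
      have := hfix' g hg1
      omega

end Main

end CfsgLib.Suzuki
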