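import Cfsg.Agent.Suzuki.KindCounts

/-!
The solubilizers of elements when the field has prime degree.
-/

set_option autoImplicit false

open scoped commutatorElement

namespace CfsgLib.Suzuki

variable {F : Type*} [Field F] [Fintype F] [CharP F 2] {m : ℕ}
  {C : Subgroup (grp (theta F m))} {k e : ℕ}

theorem isSolvable_stabInf (hm : 1 ≤ m) (hF : Fintype.card F = 2 ^ (2 * m + 1)) :
    Group.IsSolvable (stabInf (theta F m)) := by
  set hT := titsEndo_theta hm hF
  choose a c t h using fun g : stabInf (theta F m) => exists_of_mem_stabInf hT g.2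
  have hmul : ∀ g g', t (g * g') = t g * t g' := by
    intro g g'
    have e : ((g * g' : stabInf (theta F m)) : grp (theta F m)) =
        uElt hT (a g) (c g) * (tElt hT (t g) * uElt hT (a g') (c g') * (tElt hT (t g))⁻¹) *
          (tElt hT (t g) * tElt hT (t g')) := by
      rw [Subgroup.coe_mul, h g, h g']; group
    rw [h, tElt_conj_uElt, uElt_mul, tElt_mul] at e
    exact (eq_of_mul_eq hT e).2.2
  let τ : stabInf (theta F m) →* Fˣ := MonoidHom.mk' t hmul
  haveI : Fact (Nat.Prime 2) := ⟨Nat.prime_two⟩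
  haveI : Group.IsNilpotent (uGrp hT) := (isPGroup_uGrp hT).isNilpotent
  haveI : Group.IsSolvable Fˣ := Group.isSolvable_of_comm fun a b => mul_comm a b
  refine Group.isSolvable_of_ker_le_range (Subgroup.inclusion (uGrp_le_stabInf hT)) τ fun g hg => ?_
  have ht : t g = 1 := hg
  refine ⟨⟨uElt hT (a g) (c g), uElt_mem hT _ _⟩, Subtype.ext ?_⟩
  rw [Subgroup.coe_inclusion]
  rw [h g, ht, tElt_one, mul_one]

theorem Kind.isSolvable_normalizer (hC : Kind C k e) :
    Group.IsSolvable (Subgroup.normalizer (C : Set (grp (theta F m)))) := by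
  set N := Subgroup.normalizer (C : Set (grp (theta F m)))
  haveI : (C.subgroupOf N).Normal := inferInstance
  haveI : Fact (Nat.Prime 2) := ⟨Nat.prime_two⟩
  have hcard : Nat.card (N ⧸ C.subgroupOf N) = e := by
    have h2 := Subgroup.card_mul_index (C.subgroupOf N)
    rw [Nat.card_congr (Subgroup.subgroupOfEquivOfLe Subgroup.le_normalizer).toEquiv, hC.card,
      hC.card_normalizer, mul_comm e] at h2
    exact Nat.eq_of_mul_eq_mul_left (by have := hC.gt_one; omega) h2
  have hp : IsPGroup 2 (N ⧸ C.subgroupOf N) := by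
    rcases hC.index with h | h <;> rw [h] at hcard
    · exact IsPGroup.of_card (n := 1) hcard
    · exact IsPGroup.of_card (n := 2) hcard
  haveI : Group.IsNilpotent (N ⧸ C.subgroupOf N) := hp.isNilpotent
  haveI : Group.IsSolvable C := by
    haveI := hC.cyclic
    letI := IsCyclic.commGroup (α := C)
    exact Group.isSolvable_of_comm fun a b => mul_comm a b
  refine Group.isSolvable_of_ker_le_range (Subgroup.inclusion (Subgroup.le_normalizer (H := C)))
    (QuotientGroup.mk' (C.subgroupOf N)) fun g hg => ?_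
  rw [QuotientGroup.ker_mk'] at hg
  exact ⟨⟨g.1, hg⟩, rfl⟩

theorem isSolvable_of_le {G : Type*} [Group G] {H K : Subgroup G} (h : H ≤ K)
    (hK : Group.IsSolvable K) : Group.IsSolvable H :=
  Group.isSolvable_of_isSolvable_injective (Subgroup.inclusion_injective h)

/-- If the field has prime degree, the closure of `{x, y}` is solvable exactly when it lies in the normaliser
of a Sylow two-subgroup or of a torus. -/
theorem closure_cases (hm : 1 ≤ m) (hp : (2 * m + 1).Prime) (hF : Fintype.card F = 2 ^ (2 * m + 1))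
    {H : Subgroup (grp (theta F m))} (hH : Group.IsSolvable H) :
    (∃ w, ∀ h ∈ H, w⁻¹ * h * w ∈ stabInf (theta F m)) ∨
    ∀ C : Fin 3 → Subgroup (grp (theta F m)),
      (∀ g, g ≠ 1 → (∀ x, x⁻¹ * g * x ∉ uGrp (titsEndo_theta hm hF)) →
        ∃ i x, Subgroup.centralizer {g} = (C i).map (MulAut.conj x).toMonoidHom) →
      ∃ i w, ∀ h ∈ H, w⁻¹ * h * w ∈ Subgroup.normalizer ((C i : Subgroup (grp (theta F m))) : Set (grp (theta F m))) := by
  set hT := titsEndo_theta hm hF
  haveI := isSimpleGroup hT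
  have htop : H ≠ ⊤ := by
    intro h
    subst h
    haveI := hH
    have hs : Group.IsSolvable (grp (theta F m)) :=
      Group.isSolvable_of_surjective (f := (Subgroup.topEquiv : (⊤ : Subgroup (grp (theta F m))) ≃* _).toMonoidHom)
        (MulEquiv.surjective _)
    haveI := hs
    haveI : Nontrivial (grp (theta F m)) := ⟨⟨uElt hT 1 0, 1, uElt_ne_one hT⟩⟩
    exact (Group.IsSolvable.commutator_lt_top_of_nontrivial (grp (theta F m))).ne (perfect hT)
  rcases subgroup_cases hm hF H htop with ⟨P, hP⟩ | ⟨g, hg, hnu, hgM⟩ | ⟨y, K, hK2, hKF, -⟩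
  · left
    obtain ⟨w, rfl⟩ := MulAction.exists_smul_eq (grp (theta F m)) (uSylow hT) P
    refine ⟨w, fun h hh => ?_⟩
    have := hP hh
    rw [show ((w • uSylow hT : Sylow 2 (grp (theta F m))) : Subgroup (grp (theta F m))) =
        (uGrp hT).map (MulAut.conj w).toMonoidHom from rfl, ← Subgroup.map_equiv_normalizer_eq,
      normalizer_uGrp] at this
    erw [Subgroup.mem_map_equiv] at this
    rwa [MulAut.conj_symm_apply] at this
  · right
    intro C hcov
    obtain ⟨i, x, hx⟩ := hcov g hg hnu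
    refine ⟨i, x, fun h hh => ?_⟩
    have := hgM hh
    rw [hx, ← Subgroup.map_equiv_normalizer_eq] at this
    erw [Subgroup.mem_map_equiv] at this
    rwa [MulAut.conj_symm_apply] at this
  · exfalso
    obtain ⟨k, hk, hkK, hdiv⟩ := card_subfield hm hF K hK2
    rcases hp.eq_one_or_self_of_dvd _ hdiv with h | h
    · omega
    · rw [hkK, h, Nat.card_eq_fintype_card, hF] at hKF
      exact lt_irrefl _ hKF

theorem fix_only_inf (hT : TitsEndo (theta F m)) {a b : F} (hu : uElt hT a b ≠ 1)
    {w : grp (theta F m)} (hw : w⁻¹ * uElt hT a b * w ∈ stabInf (theta F m)) :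
    w ∈ stabInf (theta F m) := by
  refine eq_pInf_of_fix hT (uElt_mem hT a b) hu (smul_mem_ovoid w (pInf_mem _)) ?_
  have h : (w⁻¹ * uElt hT a b * w) • (pInf : Projectivization F (Fin 4 → F)) = pInf := hw
  rwa [mul_smul, mul_smul, inv_smul_eq_iff] at h

theorem stabInf_conj_mem {w h : grp (theta F m)} (hw : w ∈ stabInf (theta F m))
    (h' : w⁻¹ * h * w ∈ stabInf (theta F m)) : h ∈ stabInf (theta F m) := by
  have := mul_mem (mul_mem hw h') (inv_mem hw)
  convert this using 1
  group

theorem comm_mem_stabInf (hT : TitsEndo (theta F m)) {u h : grp (theta F m)} (hu : u ∈ uGrp hT)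
    (hu1 : u ≠ 1) (hc : u * h = h * u) : h ∈ stabInf (theta F m) := by
  refine mem_stabInf_of_conj hT hu hu1 ?_
  rwa [mul_assoc, hc, inv_mul_cancel_left]

/-- For a translation `x` in the normaliser `N` of a torus, the part of `N` fixing infinity meets the torus
trivially and has order `e`. -/
theorem Kind.stab_inter (hm : 1 ≤ m) (hF : Fintype.card F = 2 ^ (2 * m + 1)) (hC : Kind C k e)
    {x : grp (theta F m)} (hx : x ∈ uGrp (titsEndo_theta hm hF)) (hx1 : x ≠ 1)
    (hxN : x ∈ Subgroup.normalizer (C : Set (grp (theta F m)))) :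
    (∀ h ∈ C, h ∈ stabInf (theta F m) → h = 1) ∧
      Nat.card (Subgroup.normalizer (C : Set (grp (theta F m))) ⊓ stabInf (theta F m) :
        Subgroup (grp (theta F m))) = e := by
  set hT := titsEndo_theta hm hF
  set N := Subgroup.normalizer (C : Set (grp (theta F m))) with hN
  obtain ⟨n, hn⟩ := orderOf_of_translation hm hF (x := 1) (g := x) (by simpa using hx)
  have hxC : x ∉ C := by
    intro h
    have hodd := hC.orderOf_odd h
    rw [hn] at hodd
    rcases n with _ | n
    · exact hx1 (orderOf_eq_one_iff.1 (hn.trans (pow_zero 2)))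
    · exact absurd hodd (Nat.not_odd_iff_even.2 ((Nat.even_pow' (Nat.succ_ne_zero n)).2 even_two))
  have htriv : ∀ h ∈ C, h ∈ stabInf (theta F m) → h = 1 := by
    intro h hh hs
    have h1 : x * h * x⁻¹ * h⁻¹ ∈ uGrp hT := by
      rw [show x * h * x⁻¹ * h⁻¹ = x * (h * x⁻¹ * h⁻¹) by group]
      exact mul_mem hx (conj_mem_uGrp hT hs (inv_mem hx))
    have h2 : x * h * x⁻¹ * h⁻¹ ∈ C :=
      mul_mem ((Subgroup.mem_normalizer_iff.1 hxN h).1 hh) (inv_mem hh)
    have h3 : x * h * x⁻¹ * h⁻¹ = 1 := by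
      rw [← orderOf_eq_one_iff]
      obtain ⟨j, hj⟩ := orderOf_of_translation hm hF (x := 1) (g := x * h * x⁻¹ * h⁻¹)
        (by simpa using h1)
      have hodd := hC.orderOf_odd h2
      rw [hj] at hodd ⊢
      rcases j with _ | j
      · exact pow_zero 2
      · exact absurd hodd (Nat.not_odd_iff_even.2 ((Nat.even_pow' (Nat.succ_ne_zero j)).2 even_two))
    by_contra hne
    refine hxC ?_
    rw [← hC.cent h hh hne, Subgroup.mem_centralizer_singleton_iff]
    rwa [mul_inv_eq_one, mul_inv_eq_iff_eq_mul] at h3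
  refine ⟨htriv, ?_⟩
  set D := N ⊓ stabInf (theta F m) with hD
  have hle : Nat.card D ≤ e := by
    have hinj := Nat.card_le_card_of_injective
      (fun y : D => (QuotientGroup.mk (⟨y.1, y.2.1⟩ : N) : N ⧸ C.subgroupOf N)) fun a b h => by
        rw [QuotientGroup.eq] at h
        refine Subtype.ext (inv_mul_eq_one.1 (htriv _ h ?_))
        exact mul_mem (inv_mem a.2.2) b.2.2
    have h2 := Subgroup.card_mul_index (C.subgroupOf N)
    rw [Nat.card_congr (Subgroup.subgroupOfEquivOfLe Subgroup.le_normalizer).toEquiv, hC.card,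
      hC.card_normalizer, mul_comm e] at h2
    exact hinj.trans (le_of_eq (Nat.eq_of_mul_eq_mul_left (by have := hC.gt_one; omega) h2))
  have hxD : x ∈ D := ⟨hxN, uGrp_le_stabInf hT hx⟩
  refine le_antisymm hle ?_
  rcases hC.index with rfl | rfl
  · have : orderOf x ≤ Nat.card D :=
      Nat.le_of_dvd Nat.card_pos (Subgroup.orderOf_dvd_natCard _ hxD)
    have h1 : orderOf x ≠ 1 := fun h => hx1 (orderOf_eq_one_iff.1 h)
    have := orderOf_pos x
    omega
  · have hd : orderOf x ∣ 2 ^ 2 := orderOf_dvd_of_pow_eq_one (hC.pow_eq_one hxN ⟨n, hn⟩)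
    obtain ⟨j, hj2, hj⟩ := (Nat.dvd_prime_pow Nat.prime_two).1 hd
    interval_cases j
    · exact absurd (orderOf_eq_one_iff.1 (hj.trans (pow_zero 2))) hx1
    · obtain ⟨-, -, -, hroot⟩ := hC.counts fun y hy hyC => hC.two_power hm hF hy hyC
      obtain ⟨y, hyN, hy4, hyx⟩ := hroot x hxN hj rfl
      have hyD : y ∈ D := ⟨hyN, comm_mem_stabInf hT hx hx1 (by rw [← hyx]; group)⟩
      have h4 := Subgroup.orderOf_dvd_natCard D hyD
      rw [hy4] at h4
      exact Nat.le_of_dvd Nat.card_pos h4
    · have := Nat.le_of_dvd Nat.card_pos (Subgroup.orderOf_dvd_natCard D hxD)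
      rw [hj] at this
      exact this

theorem Kind.eq_of_normalizer_eq {C' : Subgroup (grp (theta F m))} {k' e' : ℕ} (hC : Kind C k e)
    (hC' : Kind C' k' e')
    (h : Subgroup.normalizer (C : Set (grp (theta F m))) = Subgroup.normalizer (C' : Set (grp (theta F m)))) :
    C = C' :=
  le_antisymm (fun c hc => hC'.mem_of_odd (h ▸ Subgroup.le_normalizer hc) (hC.orderOf_odd hc))
    (fun c hc => hC.mem_of_odd (h ▸ Subgroup.le_normalizer hc) (hC'.orderOf_odd hc))

/-- Two torus normalisers through the same translation share only elements fixing infinity. -/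
theorem Kind.inter_le (hm : 1 ≤ m) (hF : Fintype.card F = 2 ^ (2 * m + 1)) {C' : Subgroup (grp (theta F m))}
    {k' e' : ℕ} (hC : Kind C k e) (hC' : Kind C' k' e') (hne : C ≠ C')
    {x y : grp (theta F m)} (hx : x ∈ uGrp (titsEndo_theta hm hF)) (hx1 : x ≠ 1)
    (hxN : x ∈ Subgroup.normalizer (C : Set (grp (theta F m))))
    (hxN' : x ∈ Subgroup.normalizer (C' : Set (grp (theta F m))))
    (hy : y ∈ Subgroup.normalizer (C : Set (grp (theta F m))))
    (hy' : y ∈ Subgroup.normalizer (C' : Set (grp (theta F m)))) : y ∈ stabInf (theta F m) := by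
  set hT := titsEndo_theta hm hF
  set N := Subgroup.normalizer (C : Set (grp (theta F m))) with hN
  set D := N ⊓ Subgroup.normalizer (C' : Set (grp (theta F m))) with hD
  have htriv : ∀ h ∈ D, h ∈ C → h = 1 := by
    intro h hh hhC
    have hhC' := hC'.mem_of_odd hh.2 (hC.orderOf_odd hhC)
    by_contra hne1
    exact hne ((hC.cent h hhC hne1).symm.trans (hC'.cent h hhC' hne1))
  have hcard : Nat.card D ≤ e := by
    have hinj := Nat.card_le_card_of_injective
      (fun y : D => (QuotientGroup.mk (⟨y.1, y.2.1⟩ : N) : N ⧸ C.subgroupOf N)) fun a b h => by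
        rw [QuotientGroup.eq] at h
        exact Subtype.ext (inv_mul_eq_one.1 (htriv _ (mul_mem (inv_mem a.2) b.2) h))
    have h2 := Subgroup.card_mul_index (C.subgroupOf N)
    rw [Nat.card_congr (Subgroup.subgroupOfEquivOfLe Subgroup.le_normalizer).toEquiv, hC.card,
      hC.card_normalizer, mul_comm e] at h2
    exact hinj.trans (le_of_eq (Nat.eq_of_mul_eq_mul_left (by have := hC.gt_one; omega) h2))
  haveI : Fact (Nat.Prime 2) := ⟨Nat.prime_two⟩
  have hp : IsPGroup 2 D := by
    rw [IsPGroup.iff_orderOf]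
    rintro ⟨g, hg⟩
    rw [Subgroup.orderOf_mk]
    by_cases hgC : g ∈ C
    · exact ⟨0, by rw [htriv g hg hgC, orderOf_one, pow_zero]⟩
    · exact hC.two_power hm hF hg.1 hgC
  obtain ⟨n, hn⟩ := IsPGroup.iff_card.1 hp
  have hn2 : n ≤ 2 := by
    have : 2 ^ n ≤ 2 ^ 2 := by
      rw [← hn]; exact hcard.trans (by rcases hC.index with h | h <;> omega)
    exact (Nat.pow_le_pow_iff_right (by norm_num)).1 this
  have hcomm : (⟨x, hxN, hxN'⟩ : D) * ⟨y, hy, hy'⟩ = ⟨y, hy, hy'⟩ * ⟨x, hxN, hxN'⟩ := by
    interval_cases n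
    · haveI := (Nat.card_eq_one_iff_unique.1 (hn.trans (pow_zero 2))).1
      exact Subsingleton.elim _ _
    · haveI := isCyclic_of_prime_card (hn.trans (pow_one 2))
      letI := IsCyclic.commGroup (α := D)
      exact mul_comm _ _
    · exact IsPGroup.commutative_of_card_eq_prime_sq hn _ _
  exact comm_mem_stabInf hT hx hx1 (congrArg Subtype.val hcomm)

theorem card_sol_translation (hm : 1 ≤ m) (hp : (2 * m + 1).Prime)
    (hF : Fintype.card F = 2 ^ (2 * m + 1)) {a b : F} (hu : uElt (titsEndo_theta hm hF) a b ≠ 1)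
    {C : Fin 3 → Subgroup (grp (theta F m))} {ks es : Fin 3 → ℕ} (hC : ∀ i, Kind (C i) (ks i) (es i))
    (hks : Function.Injective ks)
    (hcov : ∀ g, g ≠ 1 → (∀ x, x⁻¹ * g * x ∉ uGrp (titsEndo_theta hm hF)) →
      ∃ i x, Subgroup.centralizer {g} = (C i).map (MulAut.conj x).toMonoidHom) :
    Nat.card (sol (uElt (titsEndo_theta hm hF) a b)) =
      Nat.card F ^ 2 * (Nat.card F - 1) +
        ∑ i, fixCard (Subgroup.normalizer ((C i : Subgroup (grp (theta F m))) : Set (grp (theta F m))))
          (uElt (titsEndo_theta hm hF) a b) * (es i * ks i - es i) := by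
  classical
  set hT := titsEndo_theta hm hF
  set x := uElt hT a b with hx
  set N : Fin 3 → Subgroup (grp (theta F m)) := fun i =>
    Subgroup.normalizer ((C i : Subgroup (grp (theta F m))) : Set (grp (theta F m))) with hN
  let N' : (Σ i, MulAction.fixedBy (grp (theta F m) ⧸ N i) x) → Subgroup (grp (theta F m)) := fun p =>
    Subgroup.normalizer (((C p.1).map (MulAut.conj (Quotient.out p.2.1)).toMonoidHom :
      Subgroup (grp (theta F m))) : Set (grp (theta F m)))
  have hkind : ∀ p : Σ i, MulAction.fixedBy (grp (theta F m) ⧸ N i) x,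
      Kind ((C p.1).map (MulAut.conj (Quotient.out p.2.1)).toMonoidHom) (ks p.1) (es p.1) := fun p =>
    (hC p.1).map _
  have hmemN : ∀ (i : Fin 3) (g y : grp (theta F m)),
      y ∈ Subgroup.normalizer (((C i).map (MulAut.conj g).toMonoidHom :
        Subgroup (grp (theta F m))) : Set (grp (theta F m))) ↔ g⁻¹ * y * g ∈ N i := by
    intro i g y
    rw [← Subgroup.map_equiv_normalizer_eq]
    erw [Subgroup.mem_map_equiv]
    rw [MulAut.conj_symm_apply]
  have hfix : ∀ (i : Fin 3) (g : grp (theta F m)),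
      x • (QuotientGroup.mk g : grp (theta F m) ⧸ N i) = QuotientGroup.mk g ↔ g⁻¹ * x * g ∈ N i := by
    intro i g
    rw [MulAction.Quotient.smul_mk, QuotientGroup.eq, smul_eq_mul, mul_inv_rev, ← inv_mem_iff]
    simp [mul_assoc]
  have hxN' : ∀ p, x ∈ N' p := fun p => by
    refine (hmemN _ _ _).2 ((hfix p.1 _).1 ?_)
    rw [show (QuotientGroup.mk (Quotient.out p.2.1) : grp (theta F m) ⧸ N p.1) = p.2.1 from
      QuotientGroup.out_eq' _]
    exact p.2.2
  have hsol : ∀ y, y ∈ sol x ↔ y ∈ stabInf (theta F m) ∨ ∃ p, y ∈ N' p := by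
    intro y
    constructor
    · intro hy
      have hxm : x ∈ Subgroup.closure ({x, y} : Set (grp (theta F m))) := Subgroup.subset_closure (by simp)
      have hym : y ∈ Subgroup.closure ({x, y} : Set (grp (theta F m))) := Subgroup.subset_closure (by simp)
      rcases closure_cases hm hp hF hy with ⟨w, hw⟩ | h
      · exact Or.inl (stabInf_conj_mem (fix_only_inf hT hu (hw x hxm)) (hw y hym))
      · obtain ⟨i, w, hw⟩ := h C hcov
        refine Or.inr ⟨⟨i, (QuotientGroup.mk w : grp (theta F m) ⧸ N i), (hfix i w).2 (hw x hxm)⟩, ?_⟩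
        refine (hmemN _ _ _).2 ?_
        set g := Quotient.out (QuotientGroup.mk w : grp (theta F m) ⧸ N i)
        have hg : w⁻¹ * g ∈ N i := by
          rw [← QuotientGroup.eq]; exact (QuotientGroup.out_eq' _).symm
        have := mul_mem (mul_mem (inv_mem hg) (hw y hym)) hg
        convert this using 1
        group
    · rintro (hy | ⟨p, hy⟩)
      · refine isSolvable_of_le ?_ (isSolvable_stabInf hm hF)
        rw [Subgroup.closure_le]
        rintro z (rfl | rfl)
        · exact uGrp_le_stabInf hT (uElt_mem hT a b)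
        · exact hy
      · refine isSolvable_of_le ?_ (hkind p).isSolvable_normalizer
        rw [Subgroup.closure_le]
        rintro z (rfl | rfl)
        · exact hxN' p
        · exact hy
  let S := stabInf (theta F m)
  have hsplit : Nat.card (sol x) = Nat.card S +
      Nat.card (Σ p, {y : N' p // (y : grp (theta F m)) ∉ S}) := by
    rw [← Nat.card_sum]
    refine (Nat.card_eq_of_bijective (Sum.elim
      (fun s : S => (⟨(s : grp (theta F m)), (hsol _).2 (Or.inl s.2)⟩ : sol x))
      (fun q => ⟨(q.2.1 : grp (theta F m)), (hsol _).2 (Or.inr ⟨q.1, q.2.1.2⟩)⟩)) ⟨?_, ?_⟩).symm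
    · rintro (s | ⟨p, ⟨y, hy⟩, hyS⟩) (s' | ⟨p', ⟨y', hy'⟩, hyS'⟩) h <;>
        have h' := congrArg Subtype.val h <;> simp only [Sum.elim_inl, Sum.elim_inr] at h'
      · exact congrArg Sum.inl (Subtype.ext h')
      · exact absurd (h' ▸ s.2) hyS'
      · exact absurd (h'.symm ▸ s'.2) hyS
      · subst h'
        have hpp : p = p' := by
          by_contra hne
          refine hyS ?_
          refine (hkind p).inter_le hm hF (hkind p') ?_ (uElt_mem hT a b) hu (hxN' p) (hxN' p') hy hy'
          intro heq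
          refine hne ?_
          obtain ⟨i, c⟩ := p
          obtain ⟨i', c'⟩ := p'
          obtain rfl : i = i' := hks (by rw [← (hkind ⟨i, c⟩).card, heq, (hkind ⟨i', c'⟩).card])
          congr 1
          refine Subtype.ext ?_
          rw [← QuotientGroup.out_eq' c.1, ← QuotientGroup.out_eq' c'.1, QuotientGroup.eq]
          show (Quotient.out c.1)⁻¹ * Quotient.out c'.1 ∈ N i
          show _ ∈ Subgroup.normalizer ((C i : Subgroup (grp (theta F m))) : Set (grp (theta F m)))
          rw [Subgroup.mem_normalizer_iff]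
          intro z
          have h2 : ∀ w, w ∈ (C i).map (MulAut.conj (Quotient.out c.1)).toMonoidHom ↔
              w ∈ (C i).map (MulAut.conj (Quotient.out c'.1)).toMonoidHom := fun w => by rw [heq]
          have h3 := h2 (Quotient.out c'.1 * z * (Quotient.out c'.1)⁻¹)
          erw [Subgroup.mem_map_equiv, Subgroup.mem_map_equiv] at h3
          rw [MulAut.conj_symm_apply, MulAut.conj_symm_apply] at h3
          rw [show (Quotient.out c'.1)⁻¹ * (Quotient.out c'.1 * z * (Quotient.out c'.1)⁻¹) *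
            Quotient.out c'.1 = z by group] at h3
          rw [← h3]
          constructor <;> intro h4 <;> convert h4 using 1 <;> group
        subst hpp
        rfl
    · rintro ⟨y, hy⟩
      by_cases hyS : y ∈ S
      · exact ⟨Sum.inl ⟨y, hyS⟩, rfl⟩
      · obtain ⟨p, hp'⟩ := ((hsol y).1 hy).resolve_left hyS
        exact ⟨Sum.inr ⟨p, ⟨⟨y, hp'⟩, hyS⟩⟩, rfl⟩
  have hout : ∀ p, Nat.card {y : N' p // (y : grp (theta F m)) ∉ S} =
      es p.1 * ks p.1 - es p.1 := by
    intro p
    obtain ⟨-, h2⟩ := (hkind p).stab_inter hm hF (uElt_mem hT a b) hu (hxN' p)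
    haveI := Fintype.ofFinite (N' p)
    rw [Nat.card_eq_fintype_card, Fintype.card_subtype_compl, ← Nat.card_eq_fintype_card,
      ← Nat.card_eq_fintype_card, (hkind p).card_normalizer]
    congr 1
    rw [← h2]
    exact Nat.card_congr
      ⟨fun y => ⟨y.1.1, y.1.2, y.2⟩, fun y => ⟨⟨y.1, y.2.1⟩, y.2.2⟩, fun _ => rfl, fun _ => rfl⟩
  rw [hsplit, card_stabInf hT, Nat.card_sigma, Fintype.sum_sigma]
  congr 1
  refine Finset.sum_congr rfl fun i _ => ?_
  simp only [hout]
  rw [Finset.sum_const, Finset.card_univ, smul_eq_mul, fixCard, Nat.card_eq_fintype_card]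

theorem kinds_coprime (hm : 1 ≤ m) {k k' : ℕ}
    (hk : k ∈ ({2 ^ (2 * m + 1) - 1, 2 ^ (2 * m + 1) + 2 ^ (m + 1) + 1,
      2 ^ (2 * m + 1) - 2 ^ (m + 1) + 1} : Set ℕ))
    (hk' : k' ∈ ({2 ^ (2 * m + 1) - 1, 2 ^ (2 * m + 1) + 2 ^ (m + 1) + 1,
      2 ^ (2 * m + 1) - 2 ^ (m + 1) + 1} : Set ℕ)) (hne : k ≠ k') : k.Coprime k' := by
  obtain ⟨-, -, -, c4, c5, c6⟩ := torus_orders_coprime m
  simp only [Set.mem_insert_iff, Set.mem_singleton_iff] at hk hk'
  rcases hk with rfl | rfl | rfl <;> rcases hk' with rfl | rfl | rfl <;>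
    first
      | exact absurd rfl hne
      | exact c4 | exact c4.symm | exact c5 | exact c5.symm | exact c6 | exact c6.symm

/-- An element of odd order and a torus of one of the kinds through it. -/
theorem odd_elt (hm : 1 ≤ m) (hF : Fintype.card F = 2 ^ (2 * m + 1)) {x : grp (theta F m)}
    (hx1 : x ≠ 1) {k : ℕ} (hxk : orderOf x ∣ k)
    (hk : k ∈ ({2 ^ (2 * m + 1) - 1, 2 ^ (2 * m + 1) + 2 ^ (m + 1) + 1,
      2 ^ (2 * m + 1) - 2 ^ (m + 1) + 1} : Set ℕ)) :
    Odd (orderOf x) ∧ (∀ z, z⁻¹ * x * z ∉ uGrp (titsEndo_theta hm hF)) ∧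
      Nat.card (Subgroup.centralizer {x}) = k := by
  have hodd : Odd (orderOf x) := Odd.of_dvd_nat (odd_of_mem_orders hm hk).1 hxk
  have hnu := not_translation_of_odd hm hF hx1 hodd
  obtain ⟨-, hk'⟩ := (translation_or_centralizer hm hF hx1).resolve_left fun ⟨z, hz⟩ => hnu z hz
  refine ⟨hodd, hnu, ?_⟩
  by_contra hne
  exact hx1 (orderOf_eq_one_iff.1 (Nat.eq_one_of_dvd_coprimes (kinds_coprime hm hk' hk hne)
    (orderOf_mem_centralizer (g := x) (h := x) rfl) hxk))

theorem card_sol_nonsplit (hm : 1 ≤ m) (hp : (2 * m + 1).Prime)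
    (hF : Fintype.card F = 2 ^ (2 * m + 1)) {x : grp (theta F m)} (hx1 : x ≠ 1) {k : ℕ}
    (hxk : orderOf x ∣ k) (hk : k = 2 ^ (2 * m + 1) + 2 ^ (m + 1) + 1 ∨
      k = 2 ^ (2 * m + 1) - 2 ^ (m + 1) + 1) :
    Nat.card (sol x) = 4 * k := by
  set hT := titsEndo_theta hm hF
  have hkmem : k ∈ ({2 ^ (2 * m + 1) - 1, 2 ^ (2 * m + 1) + 2 ^ (m + 1) + 1,
      2 ^ (2 * m + 1) - 2 ^ (m + 1) + 1} : Set ℕ) := by
    rcases hk with rfl | rfl <;> simp
  obtain ⟨hodd, hnu, hcard⟩ := odd_elt hm hF hx1 hxk hkmem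
  obtain ⟨C, h0, -, h1, h2, hcov⟩ := exists_kinds hm hF
  obtain ⟨i, y, hy⟩ := hcov x hx1 hnu
  obtain ⟨hc, hC, hcases⟩ := torus_cases hm hF hx1 hnu
  have hkne : k ≠ 2 ^ (2 * m + 1) - 1 := by
    have h : 2 ^ (m + 1) < 2 ^ (2 * m + 1) := Nat.pow_lt_pow_right (by norm_num) (by omega)
    have h' : 2 ^ 2 ≤ 2 ^ (m + 1) := Nat.pow_le_pow_right (by norm_num) (by omega)
    have key : ∀ q r k : ℕ, r < q → 2 ^ 2 ≤ r → (k = q + r + 1 ∨ k = q - r + 1) → k ≠ q - 1 := by
      intro q r k _ _ _; omega
    exact key _ _ k h h' hk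
  have hN : Nat.card (Subgroup.normalizer ((Subgroup.centralizer {x} : Subgroup (grp (theta F m))) :
      Set (grp (theta F m)))) = 4 * k := by
    rcases hcases with ⟨h, -⟩ | ⟨-, h⟩
    · exact absurd (hcard.symm.trans h) hkne
    · rw [h, hcard]
  have hkind : Kind (Subgroup.centralizer {x}) k 4 :=
    ⟨hc, hcard, (odd_of_mem_orders hm hkmem).1, (odd_of_mem_orders hm hkmem).2, hC, Or.inr rfl, hN⟩
  have hset : sol x = (Subgroup.normalizer ((Subgroup.centralizer {x} : Subgroup (grp (theta F m))) :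
      Set (grp (theta F m))) : Set (grp (theta F m))) := by
    ext z
    constructor
    · intro hz
      have hxm : x ∈ Subgroup.closure ({x, z} : Set (grp (theta F m))) := Subgroup.subset_closure (by simp)
      have hzm : z ∈ Subgroup.closure ({x, z} : Set (grp (theta F m))) := Subgroup.subset_closure (by simp)
      rcases closure_cases hm hp hF hz with ⟨w, hw⟩ | h
      · exfalso
        have hd : orderOf x ∣ Nat.card F ^ 2 * (Nat.card F - 1) := by
          rw [← card_stabInf hT, show orderOf x = orderOf (w⁻¹ * x * w) by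
            rw [show w⁻¹ * x * w = MulAut.conj w⁻¹ x by simp]
            exact (orderOf_injective (MulAut.conj w⁻¹).toMonoidHom (MulAut.conj w⁻¹).injective x).symm]
          exact Subgroup.orderOf_dvd_natCard _ (hw x hxm)
        rw [Nat.card_eq_fintype_card, hF] at hd
        obtain ⟨-, c2, c3, c4, c5, -⟩ := torus_orders_coprime m
        refine hx1 (orderOf_eq_one_iff.1 (Nat.eq_one_of_dvd_coprimes ?_ hd hxk))
        rcases hk with rfl | rfl
        · exact Nat.Coprime.mul_left c2 c4
        · exact Nat.Coprime.mul_left c3 c5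
      · obtain ⟨j, w, hw⟩ := h C hcov
        have hkind' : ∃ k' e', Kind (C j) k' e' := by
          fin_cases j
          · exact ⟨_, _, h0⟩
          · exact ⟨_, _, h1⟩
          · exact ⟨_, _, h2⟩
        obtain ⟨k', e', hj⟩ := hkind'
        set C' := (C j).map (MulAut.conj w).toMonoidHom with hC'
        have hmem : ∀ g, w⁻¹ * g * w ∈ Subgroup.normalizer ((C j : Subgroup (grp (theta F m))) : Set (grp (theta F m))) →
            g ∈ Subgroup.normalizer (C' : Set (grp (theta F m))) := by
          intro g hg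
          rw [hC', ← Subgroup.map_equiv_normalizer_eq]
          erw [Subgroup.mem_map_equiv]
          rwa [MulAut.conj_symm_apply]
        have hxC' : x ∈ C' := (hj.map w).mem_of_odd (hmem x (hw x hxm)) hodd
        have heq : Subgroup.centralizer {x} = C' := (hj.map w).cent x hxC' hx1
        rw [heq]
        exact hmem z (hw z hzm)
    · intro hz
      refine isSolvable_of_le ?_ hkind.isSolvable_normalizer
      rw [Subgroup.closure_le]
      rintro u (rfl | rfl)
      · exact Subgroup.le_normalizer (Subgroup.mem_centralizer_singleton_iff.2 rfl)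
      · exact hz
  rw [hset, ← hN]
  rfl

theorem card_sol_split (hm : 1 ≤ m) (hp : (2 * m + 1).Prime)
    (hF : Fintype.card F = 2 ^ (2 * m + 1)) {t : Fˣ} (ht : t ≠ 1) :
    Nat.card (sol (tElt (titsEndo_theta hm hF) t)) = 2 * Nat.card F ^ 2 * (Nat.card F - 1) := by
  classical
  set hT := titsEndo_theta hm hF
  obtain ⟨C, h0, hC0, h1, h2, hcov⟩ := exists_kinds hm hF
  set N := Subgroup.normalizer ((C 0 : Subgroup (grp (theta F m))) : Set (grp (theta F m))) with hN
  set B0 := MulAction.stabilizer (grp (theta F m)) (pt (theta F m) 0 0) with hB0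
  have hxC : tElt hT t ∈ C 0 := hC0 ▸ ⟨t, rfl⟩
  have hx1 : tElt hT t ≠ 1 := fun e => ht (tHom_injective hT (e.trans (map_one (tHom hT)).symm))
  have hxodd : Odd (orderOf (tElt hT t)) := h0.orderOf_odd hxC
  have hxB0 : tElt hT t ∈ B0 := tMat_smul_pt_zero hT t
  have hwinv : (wElt hT)⁻¹ = wElt hT := inv_eq_of_mul_eq_one_right (wElt_mul_self hT)
  have hwp0 : wElt hT • pt (theta F m) 0 0 = pInf := wMat_smul_pt_zero (theta F m)
  have hwp : wElt hT • (pInf : Projectivization F (Fin 4 → F)) = pt (theta F m) 0 0 :=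
    wMat_smul_pInf (theta F m)
  have hB0eq : B0 = (stabInf (theta F m)).map (MulAut.conj (wElt hT)).toMonoidHom := by
    ext g
    erw [Subgroup.mem_map_equiv]
    rw [MulAut.conj_symm_apply, hwinv]
    show g • pt (theta F m) 0 0 = pt (theta F m) 0 0 ↔
      (wElt hT * g * wElt hT) • (pInf : Projectivization F (Fin 4 → F)) = pInf
    rw [mul_smul, mul_smul, hwp, ← eq_inv_smul_iff (g := wElt hT), hwinv, hwp]
  have hB0solv : Group.IsSolvable B0 := by
    rw [hB0eq]
    haveI := isSolvable_stabInf hm hF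
    exact Group.isSolvable_of_surjective
      (f := ((MulAut.conj (wElt hT)).subgroupMap (stabInf (theta F m))).toMonoidHom) (MulEquiv.surjective _)
  have hcardB : Nat.card B0 = Nat.card F ^ 2 * (Nat.card F - 1) := by
    rw [hB0eq, ← card_stabInf hT]
    exact (Nat.card_congr ((MulAut.conj (wElt hT)).subgroupMap _).toEquiv).symm
  have hset : sol (tElt hT t) = (stabInf (theta F m) : Set (grp (theta F m))) ∪ (B0 : Set (grp (theta F m))) ∪
      (N : Set (grp (theta F m))) := by
    ext z
    simp only [Set.mem_union, SetLike.mem_coe]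
    constructor
    · intro hz
      have hxm : tElt hT t ∈ Subgroup.closure ({tElt hT t, z} : Set (grp (theta F m))) :=
        Subgroup.subset_closure (by simp)
      have hzm : z ∈ Subgroup.closure ({tElt hT t, z} : Set (grp (theta F m))) :=
        Subgroup.subset_closure (by simp)
      rcases closure_cases hm hp hF hz with ⟨w, hw⟩ | h
      · have hfix : ∀ g, w⁻¹ * g * w ∈ stabInf (theta F m) →
            g • w • (pInf : Projectivization F (Fin 4 → F)) = w • pInf := fun g hg => by
          have h : (w⁻¹ * g * w) • (pInf : Projectivization F (Fin 4 → F)) = pInf := hg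
          rwa [mul_smul, mul_smul, inv_smul_eq_iff] at h
        have hz' := hfix z (hw z hzm)
        rcases fix_tElt hT ht (smul_mem_ovoid w (pInf_mem _)) (hfix _ (hw _ hxm)) with e | e <;>
          rw [e] at hz'
        · exact Or.inl (Or.inl hz')
        · exact Or.inl (Or.inr hz')
      · right
        obtain ⟨j, w, hw⟩ := h C hcov
        have hkind' : ∃ k' e', Kind (C j) k' e' := by
          fin_cases j
          · exact ⟨_, _, h0⟩
          · exact ⟨_, _, h1⟩
          · exact ⟨_, _, h2⟩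
        obtain ⟨k', e', hj⟩ := hkind'
        set C' := (C j).map (MulAut.conj w).toMonoidHom with hC'
        have hmem : ∀ g, w⁻¹ * g * w ∈ Subgroup.normalizer ((C j : Subgroup (grp (theta F m))) : Set (grp (theta F m))) →
            g ∈ Subgroup.normalizer (C' : Set (grp (theta F m))) := by
          intro g hg
          rw [hC', ← Subgroup.map_equiv_normalizer_eq]
          erw [Subgroup.mem_map_equiv]
          rwa [MulAut.conj_symm_apply]
        have hxC' : tElt hT t ∈ C' := (hj.map w).mem_of_odd (hmem _ (hw _ hxm)) hxodd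
        have heq : C' = C 0 := ((hj.map w).cent _ hxC' hx1).symm.trans (h0.cent _ hxC hx1)
        rw [hN, ← heq]
        exact hmem z (hw z hzm)
    · rintro ((hz | hz) | hz)
      · refine isSolvable_of_le ?_ (isSolvable_stabInf hm hF)
        rw [Subgroup.closure_le]
        rintro u (rfl | rfl)
        · exact tElt_mem_stabInf hT t
        · exact hz
      · refine isSolvable_of_le ?_ hB0solv
        rw [Subgroup.closure_le]
        rintro u (rfl | rfl)
        · exact hxB0
        · exact hz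
      · refine isSolvable_of_le ?_ h0.isSolvable_normalizer
        rw [Subgroup.closure_le]
        rintro u (rfl | rfl)
        · exact Subgroup.le_normalizer hxC
        · exact hz
  have hI : (stabInf (theta F m) : Set (grp (theta F m))) ∩ (B0 : Set (grp (theta F m))) =
      (C 0 : Set (grp (theta F m))) := by
    ext g
    constructor
    · rintro ⟨hg1, hg2⟩
      obtain ⟨s, rfl⟩ := exists_tElt_of_fix hT hg1 hg2
      exact hC0 ▸ ⟨s, rfl⟩
    · intro hg
      rw [hC0] at hg
      obtain ⟨s, rfl⟩ := hg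
      exact ⟨tElt_mem_stabInf hT s, tMat_smul_pt_zero hT s⟩
  have hN' : (N : Set (grp (theta F m))) \
      ((stabInf (theta F m) : Set (grp (theta F m))) ∪ (B0 : Set (grp (theta F m)))) =
      (N : Set (grp (theta F m))) \ (C 0 : Set (grp (theta F m))) := by
    ext g
    constructor
    · rintro ⟨hg, hg'⟩
      exact ⟨hg, fun h => hg' (Or.inl ((Set.ext_iff.1 hI g).2 h).1)⟩
    · rintro ⟨hg, hg'⟩
      refine ⟨hg, fun h => hg' ?_⟩
      have hp' : g ∈ pairStab (theta F m) :=
        pairStab_of_conj hT g _ (hC0 ▸ hxC) hx1 (hC0 ▸ (Subgroup.mem_normalizer_iff.1 hg _).1 hxC)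
      rcases hp' with ⟨e1, e2⟩ | ⟨e1, e2⟩
      · rw [← hI]; exact ⟨e1, e2⟩
      · exfalso
        rcases h with h | h
        · exact pt_ne_pInf (theta F m) 0 0 (e1.symm.trans h)
        · exact pt_ne_pInf (theta F m) 0 0 (h.symm.trans e2)
  have hfin : ∀ s : Set (grp (theta F m)), s.Finite := fun s => s.toFinite
  have hcN : Nat.card N = 2 * (Nat.card F - 1) := by
    rw [hN, h0.card_normalizer, ← hF, Nat.card_eq_fintype_card]
  have hcC : Nat.card (C 0) = Nat.card F - 1 := by rw [h0.card, Nat.card_eq_fintype_card, hF]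
  rw [hset, Nat.card_coe_set_eq, ← Set.union_diff_self, Set.ncard_union_eq Set.disjoint_sdiff_right
    (hfin _) (hfin _), hN']
  have hsub : (C 0 : Set (grp (theta F m))) ⊆ (N : Set (grp (theta F m))) := Subgroup.le_normalizer
  have h3 := Set.ncard_union_add_ncard_inter (stabInf (theta F m) : Set (grp (theta F m)))
    (B0 : Set (grp (theta F m))) (hfin _) (hfin _)
  rw [hI] at h3
  have h4 := Set.ncard_diff_add_ncard_of_subset hsub (hfin _)
  simp only [← Nat.card_coe_set_eq, SetLike.coe_sort_coe] at h3 h4 ⊢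
  rw [hcC, hcardB, card_stabInf hT] at h3
  rw [hcC, hcN] at h4
  rw [show 2 * Nat.card F ^ 2 * (Nat.card F - 1) = Nat.card F ^ 2 * (Nat.card F - 1) +
    Nat.card F ^ 2 * (Nat.card F - 1) by ring]
  omega

theorem sol_table (hm : 1 ≤ m) (hp : (2 * m + 1).Prime) (hF : Fintype.card F = 2 ^ (2 * m + 1))
    (x : grp (theta F m)) :
    (orderOf x = 2 → Nat.card (sol x) = (2 ^ (2 * m + 1)) ^ 2 * (4 * 2 ^ (2 * m + 1) - 3)) ∧
    (orderOf x = 4 → Nat.card (sol x) = (2 ^ (2 * m + 1)) ^ 2 * (2 ^ (2 * m + 1) + 3)) ∧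
    (x ≠ 1 → orderOf x ∣ 2 ^ (2 * m + 1) - 1 →
      Nat.card (sol x) = 2 * (2 ^ (2 * m + 1)) ^ 2 * (2 ^ (2 * m + 1) - 1)) ∧
    (x ≠ 1 → orderOf x ∣ 2 ^ (2 * m + 1) + 2 ^ (m + 1) + 1 →
      Nat.card (sol x) = 4 * (2 ^ (2 * m + 1) + 2 ^ (m + 1) + 1)) ∧
    (x ≠ 1 → orderOf x ∣ 2 ^ (2 * m + 1) - 2 ^ (m + 1) + 1 →
      Nat.card (sol x) = 4 * (2 ^ (2 * m + 1) - 2 ^ (m + 1) + 1)) := by
  set hT := titsEndo_theta hm hF
  obtain ⟨C, h0, hC0, h1, h2, hcov⟩ := exists_kinds hm hF
  set q := 2 ^ (2 * m + 1) with hq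
  set s := 2 ^ (m + 1) with hs
  have hqF : Nat.card F = q := by rw [Nat.card_eq_fintype_card, hF]
  have hsq : s < q := Nat.pow_lt_pow_right (by norm_num) (by omega)
  have hs2 : 2 ≤ s := Nat.le_self_pow (by omega) 2
  let ks : Fin 3 → ℕ := ![q - 1, q + s + 1, q - s + 1]
  let es : Fin 3 → ℕ := ![2, 4, 4]
  have hC : ∀ i, Kind (C i) (ks i) (es i) := fun i => by
    fin_cases i
    · exact h0
    · exact h1
    · exact h2
  have hks : Function.Injective ks := by
    have key : ∀ a b : ℕ, b < a → 4 ≤ b → Function.Injective ![a - 1, a + b + 1, a - b + 1] := by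
      intro a b _ _ i j hij
      fin_cases i <;> fin_cases j <;> simp at hij ⊢ <;> omega
    exact key q s hsq (by calc 4 = 2 ^ 2 := rfl
                               _ ≤ s := Nat.pow_le_pow_right (by norm_num) (by omega))
  have hconj : ∀ y z : grp (theta F m), Nat.card (sol (y⁻¹ * z * y)) = Nat.card (sol z) := fun y z => by
    rw [show y⁻¹ * z * y = MulAut.conj y⁻¹ z by simp]
    exact card_sol_equiv (MulAut.conj y⁻¹) z
  have hu2 : uElt hT 0 (1 : F) ≠ 1 := fun e => one_ne_zero (by
    rw [← uElt_zero hT, uElt_inj] at e; exact e.2 : (1 : F) = 0)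
  refine ⟨fun hx => ?_, fun hx => ?_, fun hx1 hx => ?_,
    fun hx1 hx => card_sol_nonsplit hm hp hF hx1 hx (Or.inl rfl),
    fun hx1 hx => card_sol_nonsplit hm hp hF hx1 hx (Or.inr rfl)⟩
  · obtain ⟨y, hy⟩ := involution_normal_form hm hF hx
    rw [← hconj y, hy, card_sol_translation hm hp hF hu2 hC hks hcov, Fin.sum_univ_three, hqF]
    have f0 := ((hC 0).fixCard_eq hm hF).1
    have f1 := ((hC 1).fixCard_eq hm hF).1
    have f2 := ((hC 2).fixCard_eq hm hF).1
    rw [hqF] at f0 f1 f2
    change 2 * fixCard _ _ = _ at f0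
    change 4 * fixCard _ _ = _ at f1 f2
    simp only [show ks 0 = q - 1 from rfl, show ks 1 = q + s + 1 from rfl,
      show ks 2 = q - s + 1 from rfl, show es 0 = 2 from rfl, show es 1 = 4 from rfl,
      show es 2 = 4 from rfl]
    generalize fixCard (Subgroup.normalizer ((C 0 : Subgroup (grp (theta F m))) : Set (grp (theta F m)))) (uElt hT 0 1) = a at f0 ⊢
    generalize fixCard (Subgroup.normalizer ((C 1 : Subgroup (grp (theta F m))) : Set (grp (theta F m)))) (uElt hT 0 1) = b at f1 ⊢
    generalize fixCard (Subgroup.normalizer ((C 2 : Subgroup (grp (theta F m))) : Set (grp (theta F m)))) (uElt hT 0 1) = c at f2 ⊢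
    have e1 : 4 * (q + s + 1) - 4 = 4 * (q + s) := by omega
    have e2 : 4 * (q - s + 1) - 4 = 4 * (q - s) := by omega
    have e3 : 2 * (q - 1) - 2 = 2 * (q - 2) := by omega
    rw [e1, e2, e3]
    zify [(by omega : 1 ≤ q), (by omega : 2 ≤ q), hsq.le, (by omega : 3 ≤ 4 * q)] at *
    linear_combination ((q : ℤ) - 2) * f0 + ((q : ℤ) + s) * f1 + ((q : ℤ) - s) * f2
  · obtain ⟨y, hy | hy⟩ := four_normal_form hm hF hx
    all_goals
      first
        | rw [← hconj y x, hy]
        | rw [← sol_inv x, ← hconj y x⁻¹, hy]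
      rw [card_sol_translation hm hp hF (uElt_ne_one hT) hC hks hcov, Fin.sum_univ_three, hqF]
      have f0 := ((hC 0).fixCard_eq hm hF).2
      have f1 := ((hC 1).fixCard_eq hm hF).2
      have f2 := ((hC 2).fixCard_eq hm hF).2
      rw [show (if es 0 = 4 then Nat.card F else 0) = 0 from rfl] at f0
      rw [show (if es 1 = 4 then Nat.card F else 0) = Nat.card F from rfl, hqF] at f1
      rw [show (if es 2 = 4 then Nat.card F else 0) = Nat.card F from rfl, hqF] at f2
      simp only [show ks 0 = q - 1 from rfl, show ks 1 = q + s + 1 from rfl,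
        show ks 2 = q - s + 1 from rfl, show es 0 = 2 from rfl, show es 1 = 4 from rfl,
        show es 2 = 4 from rfl]
      generalize fixCard (Subgroup.normalizer ((C 0 : Subgroup (grp (theta F m))) : Set (grp (theta F m)))) (uElt hT 1 0) = a at f0 ⊢
      generalize fixCard (Subgroup.normalizer ((C 1 : Subgroup (grp (theta F m))) : Set (grp (theta F m)))) (uElt hT 1 0) = b at f1 ⊢
      generalize fixCard (Subgroup.normalizer ((C 2 : Subgroup (grp (theta F m))) : Set (grp (theta F m)))) (uElt hT 1 0) = c at f2 ⊢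
      obtain rfl : a = 0 := by omega
      have e1 : 4 * (q + s + 1) - 4 = 4 * (q + s) := by omega
      have e2 : 4 * (q - s + 1) - 4 = 4 * (q - s) := by omega
      rw [e1, e2, zero_mul, zero_add]
      zify [(by omega : 1 ≤ q), hsq.le] at *
      linear_combination (2 * ((q : ℤ) + s)) * f1 + (2 * ((q : ℤ) - s)) * f2
  · obtain ⟨hodd, hnu, hcard⟩ := odd_elt hm hF hx1 hx (by simp [hq])
    obtain ⟨i, y, hy⟩ := hcov x hx1 hnu
    have hi : i = 0 := hks (by
      show ks i = q - 1
      rw [← ((hC i).map y).card, ← hy, hcard])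
    subst hi
    have hxm : x ∈ Subgroup.centralizer {x} := Subgroup.mem_centralizer_singleton_iff.2 rfl
    rw [hy] at hxm
    obtain ⟨c, hc, hcx⟩ := hxm
    rw [hC0] at hc
    obtain ⟨t, rfl⟩ := hc
    have ht : t ≠ 1 := by
      rintro rfl
      rw [map_one, map_one] at hcx
      exact hx1 hcx.symm
    have hxy : y⁻¹ * x * y = tElt hT t := by
      rw [← hcx]
      show y⁻¹ * (y * tElt hT t * y⁻¹) * y = _
      group
    rw [← hconj y x, hxy, card_sol_split hm hp hF ht, hqF]

end CfsgLib.Suzuki
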